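-- Certificate checks for HNU2.
import Cfsg.Agent.Lib.Compute.TC.HNU2.Data
import Cfsg.Agent.Lib.Compute.TCSplit
set_option autoImplicit false
set_option Elab.async false
set_option maxRecDepth 1000000

open Cfsg.Agent.Lib.Compute.ToddCoxeterCore Cfsg.Agent.Lib.Compute.ToddCoxeterPresented Cfsg.Agent.Lib.Compute.TCFast

open Cfsg.Agent.Lib.Compute.TCSplit

namespace Cfsg.Agent.Lib.Compute.TC.HNU2

theorem keys10x0 : allFrom cfg.chkKey (nat_lit 15000) (nat_lit 749999) = true := by decide +kernel
theorem keys10x1 : allFrom cfg.chkKey (nat_lit 15000) (nat_lit 764999) = true := by decide +kernel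
theorem keys10x2 : allFrom cfg.chkKey (nat_lit 15000) (nat_lit 779999) = true := by decide +kernel
theorem keys10x3 : allFrom cfg.chkKey (nat_lit 15000) (nat_lit 794999) = true := by decide +kernel
theorem keys10x4 : allFrom cfg.chkKey (nat_lit 15000) (nat_lit 809999) = true := by decide +kernel
theorem keys10c1 : allFrom cfg.chkKey (nat_lit 30000) (nat_lit 749999) = true := join keys10x0 keys10x1 rfl rfl
theorem keys10c2 : allFrom cfg.chkKey (nat_lit 45000) (nat_lit 749999) = true := join keys10c1 keys10x2 rfl rfl
theorem keys10c3 : allFrom cfg.chkKey (nat_lit 60000) (nat_lit 749999) = true := join keys10c2 keys10x3 rfl rfl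
theorem keys10 : allFrom cfg.chkKey (nat_lit 75000) (nat_lit 749999) = true := join keys10c3 keys10x4 rfl rfl

end Cfsg.Agent.Lib.Compute.TC.HNU2
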