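-- Certificate checks for HNU2.
import Cfsg.Agent.Lib.Compute.TC.HNU2.Data
import Cfsg.Agent.Lib.Compute.TCSplit
set_option autoImplicit false
set_option Elab.async false
set_option maxRecDepth 1000000

open Cfsg.Agent.Lib.Compute.ToddCoxeterCore Cfsg.Agent.Lib.Compute.ToddCoxeterPresented Cfsg.Agent.Lib.Compute.TCFast

open Cfsg.Agent.Lib.Compute.TCSplit

namespace Cfsg.Agent.Lib.Compute.TC.HNU2

theorem keys16x0 : allFrom cfg.chkKey (nat_lit 14920) (nat_lit 1199999) = true := by decide +kernel
theorem keys16x1 : allFrom cfg.chkKey (nat_lit 14920) (nat_lit 1214919) = true := by decide +kernel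
theorem keys16x2 : allFrom cfg.chkKey (nat_lit 14920) (nat_lit 1229839) = true := by decide +kernel
theorem keys16x3 : allFrom cfg.chkKey (nat_lit 14919) (nat_lit 1244759) = true := by decide +kernel
theorem keys16x4 : allFrom cfg.chkKey (nat_lit 14919) (nat_lit 1259678) = true := by decide +kernel
theorem keys16c1 : allFrom cfg.chkKey (nat_lit 29840) (nat_lit 1199999) = true := join keys16x0 keys16x1 rfl rfl
theorem keys16c2 : allFrom cfg.chkKey (nat_lit 44760) (nat_lit 1199999) = true := join keys16c1 keys16x2 rfl rfl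
theorem keys16c3 : allFrom cfg.chkKey (nat_lit 59679) (nat_lit 1199999) = true := join keys16c2 keys16x3 rfl rfl
theorem keys16 : allFrom cfg.chkKey (nat_lit 74598) (nat_lit 1199999) = true := join keys16c3 keys16x4 rfl rfl

end Cfsg.Agent.Lib.Compute.TC.HNU2
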