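-- Certificate checks for HNU2.
import Cfsg.Agent.Lib.Compute.TC.HNU2.Data
import Cfsg.Agent.Lib.Compute.TCSplit
set_option autoImplicit false
set_option Elab.async false
set_option maxRecDepth 1000000

open Cfsg.Agent.Lib.Compute.ToddCoxeterCore Cfsg.Agent.Lib.Compute.ToddCoxeterPresented Cfsg.Agent.Lib.Compute.TCFast

open Cfsg.Agent.Lib.Compute.TCSplit

namespace Cfsg.Agent.Lib.Compute.TC.HNU2

theorem keys17x0 : allFrom cfg.chkKey (nat_lit 15124) (nat_lit 1274597) = true := by decide +kernel
theorem keys17x1 : allFrom cfg.chkKey (nat_lit 15124) (nat_lit 1289721) = true := by decide +kernel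
theorem keys17x2 : allFrom cfg.chkKey (nat_lit 15124) (nat_lit 1304845) = true := by decide +kernel
theorem keys17x3 : allFrom cfg.chkKey (nat_lit 15124) (nat_lit 1319969) = true := by decide +kernel
theorem keys17x4 : allFrom cfg.chkKey (nat_lit 15124) (nat_lit 1335093) = true := by decide +kernel
theorem keys17c1 : allFrom cfg.chkKey (nat_lit 30248) (nat_lit 1274597) = true := join keys17x0 keys17x1 rfl rfl
theorem keys17c2 : allFrom cfg.chkKey (nat_lit 45372) (nat_lit 1274597) = true := join keys17c1 keys17x2 rfl rfl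
theorem keys17c3 : allFrom cfg.chkKey (nat_lit 60496) (nat_lit 1274597) = true := join keys17c2 keys17x3 rfl rfl
theorem keys17 : allFrom cfg.chkKey (nat_lit 75620) (nat_lit 1274597) = true := join keys17c3 keys17x4 rfl rfl

end Cfsg.Agent.Lib.Compute.TC.HNU2
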