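-- Certificate checks for HNU2.
import Cfsg.Agent.Lib.Compute.TC.HNU2.Data
import Cfsg.Agent.Lib.Compute.TCSplit
set_option autoImplicit false
set_option Elab.async false
set_option maxRecDepth 1000000

open Cfsg.Agent.Lib.Compute.ToddCoxeterCore Cfsg.Agent.Lib.Compute.ToddCoxeterPresented Cfsg.Agent.Lib.Compute.TCFast

open Cfsg.Agent.Lib.Compute.TCSplit

namespace Cfsg.Agent.Lib.Compute.TC.HNU2

theorem keys18x0 : allFrom cfg.chkKey (nat_lit 16270) (nat_lit 1350217) = true := by decide +kernel
theorem keys18x1 : allFrom cfg.chkKey (nat_lit 16270) (nat_lit 1366487) = true := by decide +kernel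
theorem keys18x2 : allFrom cfg.chkKey (nat_lit 16270) (nat_lit 1382757) = true := by decide +kernel
theorem keys18x3 : allFrom cfg.chkKey (nat_lit 16270) (nat_lit 1399027) = true := by decide +kernel
theorem keys18x4 : allFrom cfg.chkKey (nat_lit 16270) (nat_lit 1415297) = true := by decide +kernel
theorem keys18c1 : allFrom cfg.chkKey (nat_lit 32540) (nat_lit 1350217) = true := join keys18x0 keys18x1 rfl rfl
theorem keys18c2 : allFrom cfg.chkKey (nat_lit 48810) (nat_lit 1350217) = true := join keys18c1 keys18x2 rfl rfl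
theorem keys18c3 : allFrom cfg.chkKey (nat_lit 65080) (nat_lit 1350217) = true := join keys18c2 keys18x3 rfl rfl
theorem keys18 : allFrom cfg.chkKey (nat_lit 81350) (nat_lit 1350217) = true := join keys18c3 keys18x4 rfl rfl

end Cfsg.Agent.Lib.Compute.TC.HNU2
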