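-- Certificate checks for HNU2.
import Cfsg.Agent.Lib.Compute.TC.HNU2.Data
import Cfsg.Agent.Lib.Compute.TCSplit
set_option autoImplicit false
set_option Elab.async false
set_option maxRecDepth 1000000

open Cfsg.Agent.Lib.Compute.ToddCoxeterCore Cfsg.Agent.Lib.Compute.ToddCoxeterPresented Cfsg.Agent.Lib.Compute.TCFast

open Cfsg.Agent.Lib.Compute.TCSplit

namespace Cfsg.Agent.Lib.Compute.TC.HNU2

theorem keys19x0 : allFrom cfg.chkKey (nat_lit 17161) (nat_lit 1431567) = true := by decide +kernel
theorem keys19x1 : allFrom cfg.chkKey (nat_lit 17161) (nat_lit 1448728) = true := by decide +kernel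
theorem keys19x2 : allFrom cfg.chkKey (nat_lit 17160) (nat_lit 1465889) = true := by decide +kernel
theorem keys19x3 : allFrom cfg.chkKey (nat_lit 17160) (nat_lit 1483049) = true := by decide +kernel
theorem keys19x4 : allFrom cfg.chkKey (nat_lit 17160) (nat_lit 1500209) = true := by decide +kernel
theorem keys19c1 : allFrom cfg.chkKey (nat_lit 34322) (nat_lit 1431567) = true := join keys19x0 keys19x1 rfl rfl
theorem keys19c2 : allFrom cfg.chkKey (nat_lit 51482) (nat_lit 1431567) = true := join keys19c1 keys19x2 rfl rfl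
theorem keys19c3 : allFrom cfg.chkKey (nat_lit 68642) (nat_lit 1431567) = true := join keys19c2 keys19x3 rfl rfl
theorem keys19 : allFrom cfg.chkKey (nat_lit 85802) (nat_lit 1431567) = true := join keys19c3 keys19x4 rfl rfl

end Cfsg.Agent.Lib.Compute.TC.HNU2
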