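-- Certificate checks for HNU2.
import Cfsg.Agent.Lib.Compute.TC.HNU2.Data
import Cfsg.Agent.Lib.Compute.TCSplit
set_option autoImplicit false
set_option Elab.async false
set_option maxRecDepth 1000000

open Cfsg.Agent.Lib.Compute.ToddCoxeterCore Cfsg.Agent.Lib.Compute.ToddCoxeterPresented Cfsg.Agent.Lib.Compute.TCFast

open Cfsg.Agent.Lib.Compute.TCSplit

namespace Cfsg.Agent.Lib.Compute.TC.HNU2

theorem keys20x0 : allFrom cfg.chkKey (nat_lit 17434) (nat_lit 1517369) = true := by decide +kernel
theorem keys20x1 : allFrom cfg.chkKey (nat_lit 17434) (nat_lit 1534803) = true := by decide +kernel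
theorem keys20x2 : allFrom cfg.chkKey (nat_lit 17433) (nat_lit 1552237) = true := by decide +kernel
theorem keys20x3 : allFrom cfg.chkKey (nat_lit 17433) (nat_lit 1569670) = true := by decide +kernel
theorem keys20x4 : allFrom cfg.chkKey (nat_lit 17433) (nat_lit 1587103) = true := by decide +kernel
theorem keys20c1 : allFrom cfg.chkKey (nat_lit 34868) (nat_lit 1517369) = true := join keys20x0 keys20x1 rfl rfl
theorem keys20c2 : allFrom cfg.chkKey (nat_lit 52301) (nat_lit 1517369) = true := join keys20c1 keys20x2 rfl rfl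
theorem keys20c3 : allFrom cfg.chkKey (nat_lit 69734) (nat_lit 1517369) = true := join keys20c2 keys20x3 rfl rfl
theorem keys20 : allFrom cfg.chkKey (nat_lit 87167) (nat_lit 1517369) = true := join keys20c3 keys20x4 rfl rfl

end Cfsg.Agent.Lib.Compute.TC.HNU2
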