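-- Certificate checks for HNU2.
import Cfsg.Agent.Lib.Compute.TC.HNU2.Data
import Cfsg.Agent.Lib.Compute.TCSplit
set_option autoImplicit false
set_option Elab.async false
set_option maxRecDepth 1000000

open Cfsg.Agent.Lib.Compute.ToddCoxeterCore Cfsg.Agent.Lib.Compute.ToddCoxeterPresented Cfsg.Agent.Lib.Compute.TCFast

open Cfsg.Agent.Lib.Compute.TCSplit

namespace Cfsg.Agent.Lib.Compute.TC.HNU2

theorem keys21x0 : allFrom cfg.chkKey (nat_lit 18375) (nat_lit 1604536) = true := by decide +kernel
theorem keys21x1 : allFrom cfg.chkKey (nat_lit 18375) (nat_lit 1622911) = true := by decide +kernel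
theorem keys21x2 : allFrom cfg.chkKey (nat_lit 18375) (nat_lit 1641286) = true := by decide +kernel
theorem keys21x3 : allFrom cfg.chkKey (nat_lit 18375) (nat_lit 1659661) = true := by decide +kernel
theorem keys21x4 : allFrom cfg.chkKey (nat_lit 18374) (nat_lit 1678036) = true := by decide +kernel
theorem keys21c1 : allFrom cfg.chkKey (nat_lit 36750) (nat_lit 1604536) = true := join keys21x0 keys21x1 rfl rfl
theorem keys21c2 : allFrom cfg.chkKey (nat_lit 55125) (nat_lit 1604536) = true := join keys21c1 keys21x2 rfl rfl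
theorem keys21c3 : allFrom cfg.chkKey (nat_lit 73500) (nat_lit 1604536) = true := join keys21c2 keys21x3 rfl rfl
theorem keys21 : allFrom cfg.chkKey (nat_lit 91874) (nat_lit 1604536) = true := join keys21c3 keys21x4 rfl rfl

end Cfsg.Agent.Lib.Compute.TC.HNU2
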