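-- Certificate checks for HNU2.
import Cfsg.Agent.Lib.Compute.TC.HNU2.Data
import Cfsg.Agent.Lib.Compute.TCSplit
set_option autoImplicit false
set_option Elab.async false
set_option maxRecDepth 1000000

open Cfsg.Agent.Lib.Compute.ToddCoxeterCore Cfsg.Agent.Lib.Compute.ToddCoxeterPresented Cfsg.Agent.Lib.Compute.TCFast

open Cfsg.Agent.Lib.Compute.TCSplit

namespace Cfsg.Agent.Lib.Compute.TC.HNU2

theorem keys22x0 : allFrom cfg.chkKey (nat_lit 18914) (nat_lit 1696410) = true := by decide +kernel
theorem keys22x1 : allFrom cfg.chkKey (nat_lit 18913) (nat_lit 1715324) = true := by decide +kernel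
theorem keys22x2 : allFrom cfg.chkKey (nat_lit 18913) (nat_lit 1734237) = true := by decide +kernel
theorem keys22x3 : allFrom cfg.chkKey (nat_lit 18913) (nat_lit 1753150) = true := by decide +kernel
theorem keys22x4 : allFrom cfg.chkKey (nat_lit 18913) (nat_lit 1772063) = true := by decide +kernel
theorem keys22c1 : allFrom cfg.chkKey (nat_lit 37827) (nat_lit 1696410) = true := join keys22x0 keys22x1 rfl rfl
theorem keys22c2 : allFrom cfg.chkKey (nat_lit 56740) (nat_lit 1696410) = true := join keys22c1 keys22x2 rfl rfl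
theorem keys22c3 : allFrom cfg.chkKey (nat_lit 75653) (nat_lit 1696410) = true := join keys22c2 keys22x3 rfl rfl
theorem keys22 : allFrom cfg.chkKey (nat_lit 94566) (nat_lit 1696410) = true := join keys22c3 keys22x4 rfl rfl

end Cfsg.Agent.Lib.Compute.TC.HNU2
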