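-- Certificate checks for HNU2.
import Cfsg.Agent.Lib.Compute.TC.HNU2.Data
import Cfsg.Agent.Lib.Compute.TCSplit
set_option autoImplicit false
set_option Elab.async false
set_option maxRecDepth 1000000

open Cfsg.Agent.Lib.Compute.ToddCoxeterCore Cfsg.Agent.Lib.Compute.ToddCoxeterPresented Cfsg.Agent.Lib.Compute.TCFast

open Cfsg.Agent.Lib.Compute.TCSplit

namespace Cfsg.Agent.Lib.Compute.TC.HNU2

theorem keys23x0 : allFrom cfg.chkKey (nat_lit 19022) (nat_lit 1790976) = true := by decide +kernel
theorem keys23x1 : allFrom cfg.chkKey (nat_lit 19022) (nat_lit 1809998) = true := by decide +kernel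
theorem keys23x2 : allFrom cfg.chkKey (nat_lit 19022) (nat_lit 1829020) = true := by decide +kernel
theorem keys23x3 : allFrom cfg.chkKey (nat_lit 19022) (nat_lit 1848042) = true := by decide +kernel
theorem keys23x4 : allFrom cfg.chkKey (nat_lit 19022) (nat_lit 1867064) = true := by decide +kernel
theorem keys23c1 : allFrom cfg.chkKey (nat_lit 38044) (nat_lit 1790976) = true := join keys23x0 keys23x1 rfl rfl
theorem keys23c2 : allFrom cfg.chkKey (nat_lit 57066) (nat_lit 1790976) = true := join keys23c1 keys23x2 rfl rfl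
theorem keys23c3 : allFrom cfg.chkKey (nat_lit 76088) (nat_lit 1790976) = true := join keys23c2 keys23x3 rfl rfl
theorem keys23 : allFrom cfg.chkKey (nat_lit 95110) (nat_lit 1790976) = true := join keys23c3 keys23x4 rfl rfl

end Cfsg.Agent.Lib.Compute.TC.HNU2
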