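-- Certificate checks for HNU2.
import Cfsg.Agent.Lib.Compute.TC.HNU2.Data
import Cfsg.Agent.Lib.Compute.TCSplit
set_option autoImplicit false
set_option Elab.async false
set_option maxRecDepth 1000000

open Cfsg.Agent.Lib.Compute.ToddCoxeterCore Cfsg.Agent.Lib.Compute.ToddCoxeterPresented Cfsg.Agent.Lib.Compute.TCFast

open Cfsg.Agent.Lib.Compute.TCSplit

namespace Cfsg.Agent.Lib.Compute.TC.HNU2

theorem keys24x0 : allFrom cfg.chkKey (nat_lit 19599) (nat_lit 1886086) = true := by decide +kernel
theorem keys24x1 : allFrom cfg.chkKey (nat_lit 19599) (nat_lit 1905685) = true := by decide +kernel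
theorem keys24x2 : allFrom cfg.chkKey (nat_lit 19599) (nat_lit 1925284) = true := by decide +kernel
theorem keys24x3 : allFrom cfg.chkKey (nat_lit 19599) (nat_lit 1944883) = true := by decide +kernel
theorem keys24x4 : allFrom cfg.chkKey (nat_lit 19599) (nat_lit 1964482) = true := by decide +kernel
theorem keys24c1 : allFrom cfg.chkKey (nat_lit 39198) (nat_lit 1886086) = true := join keys24x0 keys24x1 rfl rfl
theorem keys24c2 : allFrom cfg.chkKey (nat_lit 58797) (nat_lit 1886086) = true := join keys24c1 keys24x2 rfl rfl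
theorem keys24c3 : allFrom cfg.chkKey (nat_lit 78396) (nat_lit 1886086) = true := join keys24c2 keys24x3 rfl rfl
theorem keys24 : allFrom cfg.chkKey (nat_lit 97995) (nat_lit 1886086) = true := join keys24c3 keys24x4 rfl rfl

end Cfsg.Agent.Lib.Compute.TC.HNU2
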