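-- Certificate checks for HNU2.
import Cfsg.Agent.Lib.Compute.TC.HNU2.Data
import Cfsg.Agent.Lib.Compute.TCSplit
set_option autoImplicit false
set_option Elab.async false
set_option maxRecDepth 1000000

open Cfsg.Agent.Lib.Compute.ToddCoxeterCore Cfsg.Agent.Lib.Compute.ToddCoxeterPresented Cfsg.Agent.Lib.Compute.TCFast

open Cfsg.Agent.Lib.Compute.TCSplit

namespace Cfsg.Agent.Lib.Compute.TC.HNU2

theorem keys25x0 : allFrom cfg.chkKey (nat_lit 20669) (nat_lit 1984081) = true := by decide +kernel
theorem keys25x1 : allFrom cfg.chkKey (nat_lit 20669) (nat_lit 2004750) = true := by decide +kernel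
theorem keys25x2 : allFrom cfg.chkKey (nat_lit 20669) (nat_lit 2025419) = true := by decide +kernel
theorem keys25x3 : allFrom cfg.chkKey (nat_lit 20669) (nat_lit 2046088) = true := by decide +kernel
theorem keys25x4 : allFrom cfg.chkKey (nat_lit 20668) (nat_lit 2066757) = true := by decide +kernel
theorem keys25c1 : allFrom cfg.chkKey (nat_lit 41338) (nat_lit 1984081) = true := join keys25x0 keys25x1 rfl rfl
theorem keys25c2 : allFrom cfg.chkKey (nat_lit 62007) (nat_lit 1984081) = true := join keys25c1 keys25x2 rfl rfl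
theorem keys25c3 : allFrom cfg.chkKey (nat_lit 82676) (nat_lit 1984081) = true := join keys25c2 keys25x3 rfl rfl
theorem keys25 : allFrom cfg.chkKey (nat_lit 103344) (nat_lit 1984081) = true := join keys25c3 keys25x4 rfl rfl

end Cfsg.Agent.Lib.Compute.TC.HNU2
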