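-- Certificate checks for HNU2.
import Cfsg.Agent.Lib.Compute.TC.HNU2.Data
import Cfsg.Agent.Lib.Compute.TCSplit
set_option autoImplicit false
set_option Elab.async false
set_option maxRecDepth 1000000

open Cfsg.Agent.Lib.Compute.ToddCoxeterCore Cfsg.Agent.Lib.Compute.ToddCoxeterPresented Cfsg.Agent.Lib.Compute.TCFast

open Cfsg.Agent.Lib.Compute.TCSplit

namespace Cfsg.Agent.Lib.Compute.TC.HNU2

theorem keys26x0 : allFrom cfg.chkKey (nat_lit 20543) (nat_lit 2087425) = true := by decide +kernel
theorem keys26x1 : allFrom cfg.chkKey (nat_lit 20542) (nat_lit 2107968) = true := by decide +kernel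
theorem keys26x2 : allFrom cfg.chkKey (nat_lit 20542) (nat_lit 2128510) = true := by decide +kernel
theorem keys26x3 : allFrom cfg.chkKey (nat_lit 20542) (nat_lit 2149052) = true := by decide +kernel
theorem keys26x4 : allFrom cfg.chkKey (nat_lit 20542) (nat_lit 2169594) = true := by decide +kernel
theorem keys26c1 : allFrom cfg.chkKey (nat_lit 41085) (nat_lit 2087425) = true := join keys26x0 keys26x1 rfl rfl
theorem keys26c2 : allFrom cfg.chkKey (nat_lit 61627) (nat_lit 2087425) = true := join keys26c1 keys26x2 rfl rfl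
theorem keys26c3 : allFrom cfg.chkKey (nat_lit 82169) (nat_lit 2087425) = true := join keys26c2 keys26x3 rfl rfl
theorem keys26 : allFrom cfg.chkKey (nat_lit 102711) (nat_lit 2087425) = true := join keys26c3 keys26x4 rfl rfl

end Cfsg.Agent.Lib.Compute.TC.HNU2
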