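-- Certificate checks for HNU2.
import Cfsg.Agent.Lib.Compute.TC.HNU2.Data
import Cfsg.Agent.Lib.Compute.TCSplit
set_option autoImplicit false
set_option Elab.async false
set_option maxRecDepth 1000000

open Cfsg.Agent.Lib.Compute.ToddCoxeterCore Cfsg.Agent.Lib.Compute.ToddCoxeterPresented Cfsg.Agent.Lib.Compute.TCFast

open Cfsg.Agent.Lib.Compute.TCSplit

namespace Cfsg.Agent.Lib.Compute.TC.HNU2

theorem keys27x0 : allFrom cfg.chkKey (nat_lit 20646) (nat_lit 2190136) = true := by decide +kernel
theorem keys27x1 : allFrom cfg.chkKey (nat_lit 20646) (nat_lit 2210782) = true := by decide +kernel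
theorem keys27x2 : allFrom cfg.chkKey (nat_lit 20646) (nat_lit 2231428) = true := by decide +kernel
theorem keys27x3 : allFrom cfg.chkKey (nat_lit 20645) (nat_lit 2252074) = true := by decide +kernel
theorem keys27x4 : allFrom cfg.chkKey (nat_lit 20645) (nat_lit 2272719) = true := by decide +kernel
theorem keys27c1 : allFrom cfg.chkKey (nat_lit 41292) (nat_lit 2190136) = true := join keys27x0 keys27x1 rfl rfl
theorem keys27c2 : allFrom cfg.chkKey (nat_lit 61938) (nat_lit 2190136) = true := join keys27c1 keys27x2 rfl rfl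
theorem keys27c3 : allFrom cfg.chkKey (nat_lit 82583) (nat_lit 2190136) = true := join keys27c2 keys27x3 rfl rfl
theorem keys27 : allFrom cfg.chkKey (nat_lit 103228) (nat_lit 2190136) = true := join keys27c3 keys27x4 rfl rfl

end Cfsg.Agent.Lib.Compute.TC.HNU2
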