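-- Certificate checks for HNU2.
import Cfsg.Agent.Lib.Compute.TC.HNU2.Data
import Cfsg.Agent.Lib.Compute.TCSplit
set_option autoImplicit false
set_option Elab.async false
set_option maxRecDepth 1000000

open Cfsg.Agent.Lib.Compute.ToddCoxeterCore Cfsg.Agent.Lib.Compute.ToddCoxeterPresented Cfsg.Agent.Lib.Compute.TCFast

open Cfsg.Agent.Lib.Compute.TCSplit

namespace Cfsg.Agent.Lib.Compute.TC.HNU2

theorem keys28x0 : allFrom cfg.chkKey (nat_lit 21535) (nat_lit 2293364) = true := by decide +kernel
theorem keys28x1 : allFrom cfg.chkKey (nat_lit 21534) (nat_lit 2314899) = true := by decide +kernel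
theorem keys28x2 : allFrom cfg.chkKey (nat_lit 21534) (nat_lit 2336433) = true := by decide +kernel
theorem keys28x3 : allFrom cfg.chkKey (nat_lit 21534) (nat_lit 2357967) = true := by decide +kernel
theorem keys28x4 : allFrom cfg.chkKey (nat_lit 21534) (nat_lit 2379501) = true := by decide +kernel
theorem keys28c1 : allFrom cfg.chkKey (nat_lit 43069) (nat_lit 2293364) = true := join keys28x0 keys28x1 rfl rfl
theorem keys28c2 : allFrom cfg.chkKey (nat_lit 64603) (nat_lit 2293364) = true := join keys28c1 keys28x2 rfl rfl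
theorem keys28c3 : allFrom cfg.chkKey (nat_lit 86137) (nat_lit 2293364) = true := join keys28c2 keys28x3 rfl rfl
theorem keys28 : allFrom cfg.chkKey (nat_lit 107671) (nat_lit 2293364) = true := join keys28c3 keys28x4 rfl rfl

end Cfsg.Agent.Lib.Compute.TC.HNU2
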