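-- Certificate checks for HNU2.
import Cfsg.Agent.Lib.Compute.TC.HNU2.Data
import Cfsg.Agent.Lib.Compute.TCSplit
set_option autoImplicit false
set_option Elab.async false
set_option maxRecDepth 1000000

open Cfsg.Agent.Lib.Compute.ToddCoxeterCore Cfsg.Agent.Lib.Compute.ToddCoxeterPresented Cfsg.Agent.Lib.Compute.TCFast

open Cfsg.Agent.Lib.Compute.TCSplit

namespace Cfsg.Agent.Lib.Compute.TC.HNU2

theorem keys29x0 : allFrom cfg.chkKey (nat_lit 22479) (nat_lit 2401035) = true := by decide +kernel
theorem keys29x1 : allFrom cfg.chkKey (nat_lit 22479) (nat_lit 2423514) = true := by decide +kernel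
theorem keys29x2 : allFrom cfg.chkKey (nat_lit 22479) (nat_lit 2445993) = true := by decide +kernel
theorem keys29x3 : allFrom cfg.chkKey (nat_lit 22479) (nat_lit 2468472) = true := by decide +kernel
theorem keys29x4 : allFrom cfg.chkKey (nat_lit 22478) (nat_lit 2490951) = true := by decide +kernel
theorem keys29c1 : allFrom cfg.chkKey (nat_lit 44958) (nat_lit 2401035) = true := join keys29x0 keys29x1 rfl rfl
theorem keys29c2 : allFrom cfg.chkKey (nat_lit 67437) (nat_lit 2401035) = true := join keys29c1 keys29x2 rfl rfl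
theorem keys29c3 : allFrom cfg.chkKey (nat_lit 89916) (nat_lit 2401035) = true := join keys29c2 keys29x3 rfl rfl
theorem keys29 : allFrom cfg.chkKey (nat_lit 112394) (nat_lit 2401035) = true := join keys29c3 keys29x4 rfl rfl

end Cfsg.Agent.Lib.Compute.TC.HNU2
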