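-- Certificate checks for HNU2.
import Cfsg.Agent.Lib.Compute.TC.HNU2.Data
import Cfsg.Agent.Lib.Compute.TCSplit
set_option autoImplicit false
set_option Elab.async false
set_option maxRecDepth 1000000

open Cfsg.Agent.Lib.Compute.ToddCoxeterCore Cfsg.Agent.Lib.Compute.ToddCoxeterPresented Cfsg.Agent.Lib.Compute.TCFast

open Cfsg.Agent.Lib.Compute.TCSplit

namespace Cfsg.Agent.Lib.Compute.TC.HNU2

theorem keys30x0 : allFrom cfg.chkKey (nat_lit 21821) (nat_lit 2513429) = true := by decide +kernel
theorem keys30x1 : allFrom cfg.chkKey (nat_lit 21821) (nat_lit 2535250) = true := by decide +kernel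
theorem keys30x2 : allFrom cfg.chkKey (nat_lit 21820) (nat_lit 2557071) = true := by decide +kernel
theorem keys30x3 : allFrom cfg.chkKey (nat_lit 21820) (nat_lit 2578891) = true := by decide +kernel
theorem keys30x4 : allFrom cfg.chkKey (nat_lit 21820) (nat_lit 2600711) = true := by decide +kernel
theorem keys30c1 : allFrom cfg.chkKey (nat_lit 43642) (nat_lit 2513429) = true := join keys30x0 keys30x1 rfl rfl
theorem keys30c2 : allFrom cfg.chkKey (nat_lit 65462) (nat_lit 2513429) = true := join keys30c1 keys30x2 rfl rfl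
theorem keys30c3 : allFrom cfg.chkKey (nat_lit 87282) (nat_lit 2513429) = true := join keys30c2 keys30x3 rfl rfl
theorem keys30 : allFrom cfg.chkKey (nat_lit 109102) (nat_lit 2513429) = true := join keys30c3 keys30x4 rfl rfl

end Cfsg.Agent.Lib.Compute.TC.HNU2
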