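-- Certificate checks for HNU2.
import Cfsg.Agent.Lib.Compute.TC.HNU2.Data
import Cfsg.Agent.Lib.Compute.TCSplit
set_option autoImplicit false
set_option Elab.async false
set_option maxRecDepth 1000000

open Cfsg.Agent.Lib.Compute.ToddCoxeterCore Cfsg.Agent.Lib.Compute.ToddCoxeterPresented Cfsg.Agent.Lib.Compute.TCFast

open Cfsg.Agent.Lib.Compute.TCSplit

namespace Cfsg.Agent.Lib.Compute.TC.HNU2

theorem keys31x0 : allFrom cfg.chkKey (nat_lit 13883) (nat_lit 2622531) = true := by decide +kernel
theorem keys31x1 : allFrom cfg.chkKey (nat_lit 13883) (nat_lit 2636414) = true := by decide +kernel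
theorem keys31x2 : allFrom cfg.chkKey (nat_lit 13883) (nat_lit 2650297) = true := by decide +kernel
theorem keys31x3 : allFrom cfg.chkKey (nat_lit 13883) (nat_lit 2664180) = true := by decide +kernel
theorem keys31x4 : allFrom cfg.chkKey (nat_lit 13882) (nat_lit 2678063) = true := by decide +kernel
theorem keys31c1 : allFrom cfg.chkKey (nat_lit 27766) (nat_lit 2622531) = true := join keys31x0 keys31x1 rfl rfl
theorem keys31c2 : allFrom cfg.chkKey (nat_lit 41649) (nat_lit 2622531) = true := join keys31c1 keys31x2 rfl rfl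
theorem keys31c3 : allFrom cfg.chkKey (nat_lit 55532) (nat_lit 2622531) = true := join keys31c2 keys31x3 rfl rfl
theorem keys31 : allFrom cfg.chkKey (nat_lit 69414) (nat_lit 2622531) = true := join keys31c3 keys31x4 rfl rfl

end Cfsg.Agent.Lib.Compute.TC.HNU2
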