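-- Certificate checks for HNU2.
import Cfsg.Agent.Lib.Compute.TC.HNU2.Data
import Cfsg.Agent.Lib.Compute.TCSplit
set_option autoImplicit false
set_option Elab.async false
set_option maxRecDepth 1000000

open Cfsg.Agent.Lib.Compute.ToddCoxeterCore Cfsg.Agent.Lib.Compute.ToddCoxeterPresented Cfsg.Agent.Lib.Compute.TCFast

open Cfsg.Agent.Lib.Compute.TCSplit

namespace Cfsg.Agent.Lib.Compute.TC.HNU2

theorem rel1x0 : allFrom (chkRelF cfg relsL) (nat_lit 981) (nat_lit 11764) = true := by decide +kernel
theorem rel1x1 : allFrom (chkRelF cfg relsL) (nat_lit 981) (nat_lit 12745) = true := by decide +kernel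
theorem rel1x2 : allFrom (chkRelF cfg relsL) (nat_lit 981) (nat_lit 13726) = true := by decide +kernel
theorem rel1x3 : allFrom (chkRelF cfg relsL) (nat_lit 981) (nat_lit 14707) = true := by decide +kernel
theorem rel1x4 : allFrom (chkRelF cfg relsL) (nat_lit 980) (nat_lit 15688) = true := by decide +kernel
theorem rel1x5 : allFrom (chkRelF cfg relsL) (nat_lit 980) (nat_lit 16668) = true := by decide +kernel
theorem rel1x6 : allFrom (chkRelF cfg relsL) (nat_lit 980) (nat_lit 17648) = true := by decide +kernel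
theorem rel1x7 : allFrom (chkRelF cfg relsL) (nat_lit 980) (nat_lit 18628) = true := by decide +kernel
theorem rel1x8 : allFrom (chkRelF cfg relsL) (nat_lit 980) (nat_lit 19608) = true := by decide +kernel
theorem rel1x9 : allFrom (chkRelF cfg relsL) (nat_lit 980) (nat_lit 20588) = true := by decide +kernel
theorem rel1x10 : allFrom (chkRelF cfg relsL) (nat_lit 980) (nat_lit 21568) = true := by decide +kernel
theorem rel1x11 : allFrom (chkRelF cfg relsL) (nat_lit 980) (nat_lit 22548) = true := by decide +kernel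
theorem rel1c1 : allFrom (chkRelF cfg relsL) (nat_lit 1962) (nat_lit 11764) = true := join rel1x0 rel1x1 rfl rfl
theorem rel1c2 : allFrom (chkRelF cfg relsL) (nat_lit 2943) (nat_lit 11764) = true := join rel1c1 rel1x2 rfl rfl
theorem rel1c3 : allFrom (chkRelF cfg relsL) (nat_lit 3924) (nat_lit 11764) = true := join rel1c2 rel1x3 rfl rfl
theorem rel1c4 : allFrom (chkRelF cfg relsL) (nat_lit 4904) (nat_lit 11764) = true := join rel1c3 rel1x4 rfl rfl
theorem rel1c5 : allFrom (chkRelF cfg relsL) (nat_lit 5884) (nat_lit 11764) = true := join rel1c4 rel1x5 rfl rfl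
theorem rel1c6 : allFrom (chkRelF cfg relsL) (nat_lit 6864) (nat_lit 11764) = true := join rel1c5 rel1x6 rfl rfl
theorem rel1c7 : allFrom (chkRelF cfg relsL) (nat_lit 7844) (nat_lit 11764) = true := join rel1c6 rel1x7 rfl rfl
theorem rel1c8 : allFrom (chkRelF cfg relsL) (nat_lit 8824) (nat_lit 11764) = true := join rel1c7 rel1x8 rfl rfl
theorem rel1c9 : allFrom (chkRelF cfg relsL) (nat_lit 9804) (nat_lit 11764) = true := join rel1c8 rel1x9 rfl rfl
theorem rel1c10 : allFrom (chkRelF cfg relsL) (nat_lit 10784) (nat_lit 11764) = true := join rel1c9 rel1x10 rfl rfl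
theorem rel1 : allFrom (chkRelF cfg relsL) (nat_lit 11764) (nat_lit 11764) = true := join rel1c10 rel1x11 rfl rfl

end Cfsg.Agent.Lib.Compute.TC.HNU2
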