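-- Certificate checks for HNU2.
import Cfsg.Agent.Lib.Compute.TC.HNU2.Data
import Cfsg.Agent.Lib.Compute.TCSplit
set_option autoImplicit false
set_option Elab.async false
set_option maxRecDepth 1000000

open Cfsg.Agent.Lib.Compute.ToddCoxeterCore Cfsg.Agent.Lib.Compute.ToddCoxeterPresented Cfsg.Agent.Lib.Compute.TCFast

open Cfsg.Agent.Lib.Compute.TCSplit

namespace Cfsg.Agent.Lib.Compute.TC.HNU2

theorem rel10x0 : allFrom (chkRelF cfg relsL) (nat_lit 981) (nat_lit 117640) = true := by decide +kernel
theorem rel10x1 : allFrom (chkRelF cfg relsL) (nat_lit 981) (nat_lit 118621) = true := by decide +kernel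
theorem rel10x2 : allFrom (chkRelF cfg relsL) (nat_lit 981) (nat_lit 119602) = true := by decide +kernel
theorem rel10x3 : allFrom (chkRelF cfg relsL) (nat_lit 981) (nat_lit 120583) = true := by decide +kernel
theorem rel10x4 : allFrom (chkRelF cfg relsL) (nat_lit 980) (nat_lit 121564) = true := by decide +kernel
theorem rel10x5 : allFrom (chkRelF cfg relsL) (nat_lit 980) (nat_lit 122544) = true := by decide +kernel
theorem rel10x6 : allFrom (chkRelF cfg relsL) (nat_lit 980) (nat_lit 123524) = true := by decide +kernel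
theorem rel10x7 : allFrom (chkRelF cfg relsL) (nat_lit 980) (nat_lit 124504) = true := by decide +kernel
theorem rel10x8 : allFrom (chkRelF cfg relsL) (nat_lit 980) (nat_lit 125484) = true := by decide +kernel
theorem rel10x9 : allFrom (chkRelF cfg relsL) (nat_lit 980) (nat_lit 126464) = true := by decide +kernel
theorem rel10x10 : allFrom (chkRelF cfg relsL) (nat_lit 980) (nat_lit 127444) = true := by decide +kernel
theorem rel10x11 : allFrom (chkRelF cfg relsL) (nat_lit 980) (nat_lit 128424) = true := by decide +kernel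
theorem rel10c1 : allFrom (chkRelF cfg relsL) (nat_lit 1962) (nat_lit 117640) = true := join rel10x0 rel10x1 rfl rfl
theorem rel10c2 : allFrom (chkRelF cfg relsL) (nat_lit 2943) (nat_lit 117640) = true := join rel10c1 rel10x2 rfl rfl
theorem rel10c3 : allFrom (chkRelF cfg relsL) (nat_lit 3924) (nat_lit 117640) = true := join rel10c2 rel10x3 rfl rfl
theorem rel10c4 : allFrom (chkRelF cfg relsL) (nat_lit 4904) (nat_lit 117640) = true := join rel10c3 rel10x4 rfl rfl
theorem rel10c5 : allFrom (chkRelF cfg relsL) (nat_lit 5884) (nat_lit 117640) = true := join rel10c4 rel10x5 rfl rfl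
theorem rel10c6 : allFrom (chkRelF cfg relsL) (nat_lit 6864) (nat_lit 117640) = true := join rel10c5 rel10x6 rfl rfl
theorem rel10c7 : allFrom (chkRelF cfg relsL) (nat_lit 7844) (nat_lit 117640) = true := join rel10c6 rel10x7 rfl rfl
theorem rel10c8 : allFrom (chkRelF cfg relsL) (nat_lit 8824) (nat_lit 117640) = true := join rel10c7 rel10x8 rfl rfl
theorem rel10c9 : allFrom (chkRelF cfg relsL) (nat_lit 9804) (nat_lit 117640) = true := join rel10c8 rel10x9 rfl rfl
theorem rel10c10 : allFrom (chkRelF cfg relsL) (nat_lit 10784) (nat_lit 117640) = true := join rel10c9 rel10x10 rfl rfl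
theorem rel10 : allFrom (chkRelF cfg relsL) (nat_lit 11764) (nat_lit 117640) = true := join rel10c10 rel10x11 rfl rfl

end Cfsg.Agent.Lib.Compute.TC.HNU2
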