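-- Certificate checks for HNU2.
import Cfsg.Agent.Lib.Compute.TC.HNU2.Data
import Cfsg.Agent.Lib.Compute.TCSplit
set_option autoImplicit false
set_option Elab.async false
set_option maxRecDepth 1000000

open Cfsg.Agent.Lib.Compute.ToddCoxeterCore Cfsg.Agent.Lib.Compute.ToddCoxeterPresented Cfsg.Agent.Lib.Compute.TCFast

open Cfsg.Agent.Lib.Compute.TCSplit

namespace Cfsg.Agent.Lib.Compute.TC.HNU2

theorem rel11x0 : allFrom (chkRelF cfg relsL) (nat_lit 981) (nat_lit 129404) = true := by decide +kernel
theorem rel11x1 : allFrom (chkRelF cfg relsL) (nat_lit 981) (nat_lit 130385) = true := by decide +kernel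
theorem rel11x2 : allFrom (chkRelF cfg relsL) (nat_lit 981) (nat_lit 131366) = true := by decide +kernel
theorem rel11x3 : allFrom (chkRelF cfg relsL) (nat_lit 981) (nat_lit 132347) = true := by decide +kernel
theorem rel11x4 : allFrom (chkRelF cfg relsL) (nat_lit 980) (nat_lit 133328) = true := by decide +kernel
theorem rel11x5 : allFrom (chkRelF cfg relsL) (nat_lit 980) (nat_lit 134308) = true := by decide +kernel
theorem rel11x6 : allFrom (chkRelF cfg relsL) (nat_lit 980) (nat_lit 135288) = true := by decide +kernel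
theorem rel11x7 : allFrom (chkRelF cfg relsL) (nat_lit 980) (nat_lit 136268) = true := by decide +kernel
theorem rel11x8 : allFrom (chkRelF cfg relsL) (nat_lit 980) (nat_lit 137248) = true := by decide +kernel
theorem rel11x9 : allFrom (chkRelF cfg relsL) (nat_lit 980) (nat_lit 138228) = true := by decide +kernel
theorem rel11x10 : allFrom (chkRelF cfg relsL) (nat_lit 980) (nat_lit 139208) = true := by decide +kernel
theorem rel11x11 : allFrom (chkRelF cfg relsL) (nat_lit 980) (nat_lit 140188) = true := by decide +kernel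
theorem rel11c1 : allFrom (chkRelF cfg relsL) (nat_lit 1962) (nat_lit 129404) = true := join rel11x0 rel11x1 rfl rfl
theorem rel11c2 : allFrom (chkRelF cfg relsL) (nat_lit 2943) (nat_lit 129404) = true := join rel11c1 rel11x2 rfl rfl
theorem rel11c3 : allFrom (chkRelF cfg relsL) (nat_lit 3924) (nat_lit 129404) = true := join rel11c2 rel11x3 rfl rfl
theorem rel11c4 : allFrom (chkRelF cfg relsL) (nat_lit 4904) (nat_lit 129404) = true := join rel11c3 rel11x4 rfl rfl
theorem rel11c5 : allFrom (chkRelF cfg relsL) (nat_lit 5884) (nat_lit 129404) = true := join rel11c4 rel11x5 rfl rfl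
theorem rel11c6 : allFrom (chkRelF cfg relsL) (nat_lit 6864) (nat_lit 129404) = true := join rel11c5 rel11x6 rfl rfl
theorem rel11c7 : allFrom (chkRelF cfg relsL) (nat_lit 7844) (nat_lit 129404) = true := join rel11c6 rel11x7 rfl rfl
theorem rel11c8 : allFrom (chkRelF cfg relsL) (nat_lit 8824) (nat_lit 129404) = true := join rel11c7 rel11x8 rfl rfl
theorem rel11c9 : allFrom (chkRelF cfg relsL) (nat_lit 9804) (nat_lit 129404) = true := join rel11c8 rel11x9 rfl rfl
theorem rel11c10 : allFrom (chkRelF cfg relsL) (nat_lit 10784) (nat_lit 129404) = true := join rel11c9 rel11x10 rfl rfl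
theorem rel11 : allFrom (chkRelF cfg relsL) (nat_lit 11764) (nat_lit 129404) = true := join rel11c10 rel11x11 rfl rfl

end Cfsg.Agent.Lib.Compute.TC.HNU2
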