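-- Certificate checks for HNU2.
import Cfsg.Agent.Lib.Compute.TC.HNU2.Data
import Cfsg.Agent.Lib.Compute.TCSplit
set_option autoImplicit false
set_option Elab.async false
set_option maxRecDepth 1000000

open Cfsg.Agent.Lib.Compute.ToddCoxeterCore Cfsg.Agent.Lib.Compute.ToddCoxeterPresented Cfsg.Agent.Lib.Compute.TCFast

open Cfsg.Agent.Lib.Compute.TCSplit

namespace Cfsg.Agent.Lib.Compute.TC.HNU2

theorem rel12x0 : allFrom (chkRelF cfg relsL) (nat_lit 981) (nat_lit 141168) = true := by decide +kernel
theorem rel12x1 : allFrom (chkRelF cfg relsL) (nat_lit 981) (nat_lit 142149) = true := by decide +kernel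
theorem rel12x2 : allFrom (chkRelF cfg relsL) (nat_lit 981) (nat_lit 143130) = true := by decide +kernel
theorem rel12x3 : allFrom (chkRelF cfg relsL) (nat_lit 981) (nat_lit 144111) = true := by decide +kernel
theorem rel12x4 : allFrom (chkRelF cfg relsL) (nat_lit 980) (nat_lit 145092) = true := by decide +kernel
theorem rel12x5 : allFrom (chkRelF cfg relsL) (nat_lit 980) (nat_lit 146072) = true := by decide +kernel
theorem rel12x6 : allFrom (chkRelF cfg relsL) (nat_lit 980) (nat_lit 147052) = true := by decide +kernel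
theorem rel12x7 : allFrom (chkRelF cfg relsL) (nat_lit 980) (nat_lit 148032) = true := by decide +kernel
theorem rel12x8 : allFrom (chkRelF cfg relsL) (nat_lit 980) (nat_lit 149012) = true := by decide +kernel
theorem rel12x9 : allFrom (chkRelF cfg relsL) (nat_lit 980) (nat_lit 149992) = true := by decide +kernel
theorem rel12x10 : allFrom (chkRelF cfg relsL) (nat_lit 980) (nat_lit 150972) = true := by decide +kernel
theorem rel12x11 : allFrom (chkRelF cfg relsL) (nat_lit 980) (nat_lit 151952) = true := by decide +kernel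
theorem rel12c1 : allFrom (chkRelF cfg relsL) (nat_lit 1962) (nat_lit 141168) = true := join rel12x0 rel12x1 rfl rfl
theorem rel12c2 : allFrom (chkRelF cfg relsL) (nat_lit 2943) (nat_lit 141168) = true := join rel12c1 rel12x2 rfl rfl
theorem rel12c3 : allFrom (chkRelF cfg relsL) (nat_lit 3924) (nat_lit 141168) = true := join rel12c2 rel12x3 rfl rfl
theorem rel12c4 : allFrom (chkRelF cfg relsL) (nat_lit 4904) (nat_lit 141168) = true := join rel12c3 rel12x4 rfl rfl
theorem rel12c5 : allFrom (chkRelF cfg relsL) (nat_lit 5884) (nat_lit 141168) = true := join rel12c4 rel12x5 rfl rfl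
theorem rel12c6 : allFrom (chkRelF cfg relsL) (nat_lit 6864) (nat_lit 141168) = true := join rel12c5 rel12x6 rfl rfl
theorem rel12c7 : allFrom (chkRelF cfg relsL) (nat_lit 7844) (nat_lit 141168) = true := join rel12c6 rel12x7 rfl rfl
theorem rel12c8 : allFrom (chkRelF cfg relsL) (nat_lit 8824) (nat_lit 141168) = true := join rel12c7 rel12x8 rfl rfl
theorem rel12c9 : allFrom (chkRelF cfg relsL) (nat_lit 9804) (nat_lit 141168) = true := join rel12c8 rel12x9 rfl rfl
theorem rel12c10 : allFrom (chkRelF cfg relsL) (nat_lit 10784) (nat_lit 141168) = true := join rel12c9 rel12x10 rfl rfl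
theorem rel12 : allFrom (chkRelF cfg relsL) (nat_lit 11764) (nat_lit 141168) = true := join rel12c10 rel12x11 rfl rfl

end Cfsg.Agent.Lib.Compute.TC.HNU2
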