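-- Certificate checks for HNU2.
import Cfsg.Agent.Lib.Compute.TC.HNU2.Data
import Cfsg.Agent.Lib.Compute.TCSplit
set_option autoImplicit false
set_option Elab.async false
set_option maxRecDepth 1000000

open Cfsg.Agent.Lib.Compute.ToddCoxeterCore Cfsg.Agent.Lib.Compute.ToddCoxeterPresented Cfsg.Agent.Lib.Compute.TCFast

open Cfsg.Agent.Lib.Compute.TCSplit

namespace Cfsg.Agent.Lib.Compute.TC.HNU2

theorem rel13x0 : allFrom (chkRelF cfg relsL) (nat_lit 981) (nat_lit 152932) = true := by decide +kernel
theorem rel13x1 : allFrom (chkRelF cfg relsL) (nat_lit 981) (nat_lit 153913) = true := by decide +kernel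
theorem rel13x2 : allFrom (chkRelF cfg relsL) (nat_lit 981) (nat_lit 154894) = true := by decide +kernel
theorem rel13x3 : allFrom (chkRelF cfg relsL) (nat_lit 981) (nat_lit 155875) = true := by decide +kernel
theorem rel13x4 : allFrom (chkRelF cfg relsL) (nat_lit 980) (nat_lit 156856) = true := by decide +kernel
theorem rel13x5 : allFrom (chkRelF cfg relsL) (nat_lit 980) (nat_lit 157836) = true := by decide +kernel
theorem rel13x6 : allFrom (chkRelF cfg relsL) (nat_lit 980) (nat_lit 158816) = true := by decide +kernel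
theorem rel13x7 : allFrom (chkRelF cfg relsL) (nat_lit 980) (nat_lit 159796) = true := by decide +kernel
theorem rel13x8 : allFrom (chkRelF cfg relsL) (nat_lit 980) (nat_lit 160776) = true := by decide +kernel
theorem rel13x9 : allFrom (chkRelF cfg relsL) (nat_lit 980) (nat_lit 161756) = true := by decide +kernel
theorem rel13x10 : allFrom (chkRelF cfg relsL) (nat_lit 980) (nat_lit 162736) = true := by decide +kernel
theorem rel13x11 : allFrom (chkRelF cfg relsL) (nat_lit 980) (nat_lit 163716) = true := by decide +kernel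
theorem rel13c1 : allFrom (chkRelF cfg relsL) (nat_lit 1962) (nat_lit 152932) = true := join rel13x0 rel13x1 rfl rfl
theorem rel13c2 : allFrom (chkRelF cfg relsL) (nat_lit 2943) (nat_lit 152932) = true := join rel13c1 rel13x2 rfl rfl
theorem rel13c3 : allFrom (chkRelF cfg relsL) (nat_lit 3924) (nat_lit 152932) = true := join rel13c2 rel13x3 rfl rfl
theorem rel13c4 : allFrom (chkRelF cfg relsL) (nat_lit 4904) (nat_lit 152932) = true := join rel13c3 rel13x4 rfl rfl
theorem rel13c5 : allFrom (chkRelF cfg relsL) (nat_lit 5884) (nat_lit 152932) = true := join rel13c4 rel13x5 rfl rfl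
theorem rel13c6 : allFrom (chkRelF cfg relsL) (nat_lit 6864) (nat_lit 152932) = true := join rel13c5 rel13x6 rfl rfl
theorem rel13c7 : allFrom (chkRelF cfg relsL) (nat_lit 7844) (nat_lit 152932) = true := join rel13c6 rel13x7 rfl rfl
theorem rel13c8 : allFrom (chkRelF cfg relsL) (nat_lit 8824) (nat_lit 152932) = true := join rel13c7 rel13x8 rfl rfl
theorem rel13c9 : allFrom (chkRelF cfg relsL) (nat_lit 9804) (nat_lit 152932) = true := join rel13c8 rel13x9 rfl rfl
theorem rel13c10 : allFrom (chkRelF cfg relsL) (nat_lit 10784) (nat_lit 152932) = true := join rel13c9 rel13x10 rfl rfl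
theorem rel13 : allFrom (chkRelF cfg relsL) (nat_lit 11764) (nat_lit 152932) = true := join rel13c10 rel13x11 rfl rfl

end Cfsg.Agent.Lib.Compute.TC.HNU2
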