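-- Certificate checks for HNU2.
import Cfsg.Agent.Lib.Compute.TC.HNU2.Data
import Cfsg.Agent.Lib.Compute.TCSplit
set_option autoImplicit false
set_option Elab.async false
set_option maxRecDepth 1000000

open Cfsg.Agent.Lib.Compute.ToddCoxeterCore Cfsg.Agent.Lib.Compute.ToddCoxeterPresented Cfsg.Agent.Lib.Compute.TCFast

open Cfsg.Agent.Lib.Compute.TCSplit

namespace Cfsg.Agent.Lib.Compute.TC.HNU2

theorem rel14x0 : allFrom (chkRelF cfg relsL) (nat_lit 981) (nat_lit 164696) = true := by decide +kernel
theorem rel14x1 : allFrom (chkRelF cfg relsL) (nat_lit 981) (nat_lit 165677) = true := by decide +kernel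
theorem rel14x2 : allFrom (chkRelF cfg relsL) (nat_lit 981) (nat_lit 166658) = true := by decide +kernel
theorem rel14x3 : allFrom (chkRelF cfg relsL) (nat_lit 981) (nat_lit 167639) = true := by decide +kernel
theorem rel14x4 : allFrom (chkRelF cfg relsL) (nat_lit 980) (nat_lit 168620) = true := by decide +kernel
theorem rel14x5 : allFrom (chkRelF cfg relsL) (nat_lit 980) (nat_lit 169600) = true := by decide +kernel
theorem rel14x6 : allFrom (chkRelF cfg relsL) (nat_lit 980) (nat_lit 170580) = true := by decide +kernel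
theorem rel14x7 : allFrom (chkRelF cfg relsL) (nat_lit 980) (nat_lit 171560) = true := by decide +kernel
theorem rel14x8 : allFrom (chkRelF cfg relsL) (nat_lit 980) (nat_lit 172540) = true := by decide +kernel
theorem rel14x9 : allFrom (chkRelF cfg relsL) (nat_lit 980) (nat_lit 173520) = true := by decide +kernel
theorem rel14x10 : allFrom (chkRelF cfg relsL) (nat_lit 980) (nat_lit 174500) = true := by decide +kernel
theorem rel14x11 : allFrom (chkRelF cfg relsL) (nat_lit 980) (nat_lit 175480) = true := by decide +kernel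
theorem rel14c1 : allFrom (chkRelF cfg relsL) (nat_lit 1962) (nat_lit 164696) = true := join rel14x0 rel14x1 rfl rfl
theorem rel14c2 : allFrom (chkRelF cfg relsL) (nat_lit 2943) (nat_lit 164696) = true := join rel14c1 rel14x2 rfl rfl
theorem rel14c3 : allFrom (chkRelF cfg relsL) (nat_lit 3924) (nat_lit 164696) = true := join rel14c2 rel14x3 rfl rfl
theorem rel14c4 : allFrom (chkRelF cfg relsL) (nat_lit 4904) (nat_lit 164696) = true := join rel14c3 rel14x4 rfl rfl
theorem rel14c5 : allFrom (chkRelF cfg relsL) (nat_lit 5884) (nat_lit 164696) = true := join rel14c4 rel14x5 rfl rfl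
theorem rel14c6 : allFrom (chkRelF cfg relsL) (nat_lit 6864) (nat_lit 164696) = true := join rel14c5 rel14x6 rfl rfl
theorem rel14c7 : allFrom (chkRelF cfg relsL) (nat_lit 7844) (nat_lit 164696) = true := join rel14c6 rel14x7 rfl rfl
theorem rel14c8 : allFrom (chkRelF cfg relsL) (nat_lit 8824) (nat_lit 164696) = true := join rel14c7 rel14x8 rfl rfl
theorem rel14c9 : allFrom (chkRelF cfg relsL) (nat_lit 9804) (nat_lit 164696) = true := join rel14c8 rel14x9 rfl rfl
theorem rel14c10 : allFrom (chkRelF cfg relsL) (nat_lit 10784) (nat_lit 164696) = true := join rel14c9 rel14x10 rfl rfl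
theorem rel14 : allFrom (chkRelF cfg relsL) (nat_lit 11764) (nat_lit 164696) = true := join rel14c10 rel14x11 rfl rfl

end Cfsg.Agent.Lib.Compute.TC.HNU2
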