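-- Certificate checks for HNU2.
import Cfsg.Agent.Lib.Compute.TC.HNU2.Data
import Cfsg.Agent.Lib.Compute.TCSplit
set_option autoImplicit false
set_option Elab.async false
set_option maxRecDepth 1000000

open Cfsg.Agent.Lib.Compute.ToddCoxeterCore Cfsg.Agent.Lib.Compute.ToddCoxeterPresented Cfsg.Agent.Lib.Compute.TCFast

open Cfsg.Agent.Lib.Compute.TCSplit

namespace Cfsg.Agent.Lib.Compute.TC.HNU2

theorem rel15x0 : allFrom (chkRelF cfg relsL) (nat_lit 981) (nat_lit 176460) = true := by decide +kernel
theorem rel15x1 : allFrom (chkRelF cfg relsL) (nat_lit 981) (nat_lit 177441) = true := by decide +kernel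
theorem rel15x2 : allFrom (chkRelF cfg relsL) (nat_lit 981) (nat_lit 178422) = true := by decide +kernel
theorem rel15x3 : allFrom (chkRelF cfg relsL) (nat_lit 981) (nat_lit 179403) = true := by decide +kernel
theorem rel15x4 : allFrom (chkRelF cfg relsL) (nat_lit 980) (nat_lit 180384) = true := by decide +kernel
theorem rel15x5 : allFrom (chkRelF cfg relsL) (nat_lit 980) (nat_lit 181364) = true := by decide +kernel
theorem rel15x6 : allFrom (chkRelF cfg relsL) (nat_lit 980) (nat_lit 182344) = true := by decide +kernel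
theorem rel15x7 : allFrom (chkRelF cfg relsL) (nat_lit 980) (nat_lit 183324) = true := by decide +kernel
theorem rel15x8 : allFrom (chkRelF cfg relsL) (nat_lit 980) (nat_lit 184304) = true := by decide +kernel
theorem rel15x9 : allFrom (chkRelF cfg relsL) (nat_lit 980) (nat_lit 185284) = true := by decide +kernel
theorem rel15x10 : allFrom (chkRelF cfg relsL) (nat_lit 980) (nat_lit 186264) = true := by decide +kernel
theorem rel15x11 : allFrom (chkRelF cfg relsL) (nat_lit 980) (nat_lit 187244) = true := by decide +kernel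
theorem rel15c1 : allFrom (chkRelF cfg relsL) (nat_lit 1962) (nat_lit 176460) = true := join rel15x0 rel15x1 rfl rfl
theorem rel15c2 : allFrom (chkRelF cfg relsL) (nat_lit 2943) (nat_lit 176460) = true := join rel15c1 rel15x2 rfl rfl
theorem rel15c3 : allFrom (chkRelF cfg relsL) (nat_lit 3924) (nat_lit 176460) = true := join rel15c2 rel15x3 rfl rfl
theorem rel15c4 : allFrom (chkRelF cfg relsL) (nat_lit 4904) (nat_lit 176460) = true := join rel15c3 rel15x4 rfl rfl
theorem rel15c5 : allFrom (chkRelF cfg relsL) (nat_lit 5884) (nat_lit 176460) = true := join rel15c4 rel15x5 rfl rfl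
theorem rel15c6 : allFrom (chkRelF cfg relsL) (nat_lit 6864) (nat_lit 176460) = true := join rel15c5 rel15x6 rfl rfl
theorem rel15c7 : allFrom (chkRelF cfg relsL) (nat_lit 7844) (nat_lit 176460) = true := join rel15c6 rel15x7 rfl rfl
theorem rel15c8 : allFrom (chkRelF cfg relsL) (nat_lit 8824) (nat_lit 176460) = true := join rel15c7 rel15x8 rfl rfl
theorem rel15c9 : allFrom (chkRelF cfg relsL) (nat_lit 9804) (nat_lit 176460) = true := join rel15c8 rel15x9 rfl rfl
theorem rel15c10 : allFrom (chkRelF cfg relsL) (nat_lit 10784) (nat_lit 176460) = true := join rel15c9 rel15x10 rfl rfl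
theorem rel15 : allFrom (chkRelF cfg relsL) (nat_lit 11764) (nat_lit 176460) = true := join rel15c10 rel15x11 rfl rfl

end Cfsg.Agent.Lib.Compute.TC.HNU2
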