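-- Certificate checks for HNU2.
import Cfsg.Agent.Lib.Compute.TC.HNU2.Data
import Cfsg.Agent.Lib.Compute.TCSplit
set_option autoImplicit false
set_option Elab.async false
set_option maxRecDepth 1000000

open Cfsg.Agent.Lib.Compute.ToddCoxeterCore Cfsg.Agent.Lib.Compute.ToddCoxeterPresented Cfsg.Agent.Lib.Compute.TCFast

open Cfsg.Agent.Lib.Compute.TCSplit

namespace Cfsg.Agent.Lib.Compute.TC.HNU2

theorem rel16x0 : allFrom (chkRelF cfg relsL) (nat_lit 981) (nat_lit 188224) = true := by decide +kernel
theorem rel16x1 : allFrom (chkRelF cfg relsL) (nat_lit 981) (nat_lit 189205) = true := by decide +kernel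
theorem rel16x2 : allFrom (chkRelF cfg relsL) (nat_lit 981) (nat_lit 190186) = true := by decide +kernel
theorem rel16x3 : allFrom (chkRelF cfg relsL) (nat_lit 981) (nat_lit 191167) = true := by decide +kernel
theorem rel16x4 : allFrom (chkRelF cfg relsL) (nat_lit 980) (nat_lit 192148) = true := by decide +kernel
theorem rel16x5 : allFrom (chkRelF cfg relsL) (nat_lit 980) (nat_lit 193128) = true := by decide +kernel
theorem rel16x6 : allFrom (chkRelF cfg relsL) (nat_lit 980) (nat_lit 194108) = true := by decide +kernel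
theorem rel16x7 : allFrom (chkRelF cfg relsL) (nat_lit 980) (nat_lit 195088) = true := by decide +kernel
theorem rel16x8 : allFrom (chkRelF cfg relsL) (nat_lit 980) (nat_lit 196068) = true := by decide +kernel
theorem rel16x9 : allFrom (chkRelF cfg relsL) (nat_lit 980) (nat_lit 197048) = true := by decide +kernel
theorem rel16x10 : allFrom (chkRelF cfg relsL) (nat_lit 980) (nat_lit 198028) = true := by decide +kernel
theorem rel16x11 : allFrom (chkRelF cfg relsL) (nat_lit 980) (nat_lit 199008) = true := by decide +kernel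
theorem rel16c1 : allFrom (chkRelF cfg relsL) (nat_lit 1962) (nat_lit 188224) = true := join rel16x0 rel16x1 rfl rfl
theorem rel16c2 : allFrom (chkRelF cfg relsL) (nat_lit 2943) (nat_lit 188224) = true := join rel16c1 rel16x2 rfl rfl
theorem rel16c3 : allFrom (chkRelF cfg relsL) (nat_lit 3924) (nat_lit 188224) = true := join rel16c2 rel16x3 rfl rfl
theorem rel16c4 : allFrom (chkRelF cfg relsL) (nat_lit 4904) (nat_lit 188224) = true := join rel16c3 rel16x4 rfl rfl
theorem rel16c5 : allFrom (chkRelF cfg relsL) (nat_lit 5884) (nat_lit 188224) = true := join rel16c4 rel16x5 rfl rfl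
theorem rel16c6 : allFrom (chkRelF cfg relsL) (nat_lit 6864) (nat_lit 188224) = true := join rel16c5 rel16x6 rfl rfl
theorem rel16c7 : allFrom (chkRelF cfg relsL) (nat_lit 7844) (nat_lit 188224) = true := join rel16c6 rel16x7 rfl rfl
theorem rel16c8 : allFrom (chkRelF cfg relsL) (nat_lit 8824) (nat_lit 188224) = true := join rel16c7 rel16x8 rfl rfl
theorem rel16c9 : allFrom (chkRelF cfg relsL) (nat_lit 9804) (nat_lit 188224) = true := join rel16c8 rel16x9 rfl rfl
theorem rel16c10 : allFrom (chkRelF cfg relsL) (nat_lit 10784) (nat_lit 188224) = true := join rel16c9 rel16x10 rfl rfl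
theorem rel16 : allFrom (chkRelF cfg relsL) (nat_lit 11764) (nat_lit 188224) = true := join rel16c10 rel16x11 rfl rfl

end Cfsg.Agent.Lib.Compute.TC.HNU2
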