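-- Certificate checks for HNU2.
import Cfsg.Agent.Lib.Compute.TC.HNU2.Data
import Cfsg.Agent.Lib.Compute.TCSplit
set_option autoImplicit false
set_option Elab.async false
set_option maxRecDepth 1000000

open Cfsg.Agent.Lib.Compute.ToddCoxeterCore Cfsg.Agent.Lib.Compute.ToddCoxeterPresented Cfsg.Agent.Lib.Compute.TCFast

open Cfsg.Agent.Lib.Compute.TCSplit

namespace Cfsg.Agent.Lib.Compute.TC.HNU2

theorem rel17x0 : allFrom (chkRelF cfg relsL) (nat_lit 981) (nat_lit 199988) = true := by decide +kernel
theorem rel17x1 : allFrom (chkRelF cfg relsL) (nat_lit 981) (nat_lit 200969) = true := by decide +kernel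
theorem rel17x2 : allFrom (chkRelF cfg relsL) (nat_lit 981) (nat_lit 201950) = true := by decide +kernel
theorem rel17x3 : allFrom (chkRelF cfg relsL) (nat_lit 981) (nat_lit 202931) = true := by decide +kernel
theorem rel17x4 : allFrom (chkRelF cfg relsL) (nat_lit 980) (nat_lit 203912) = true := by decide +kernel
theorem rel17x5 : allFrom (chkRelF cfg relsL) (nat_lit 980) (nat_lit 204892) = true := by decide +kernel
theorem rel17x6 : allFrom (chkRelF cfg relsL) (nat_lit 980) (nat_lit 205872) = true := by decide +kernel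
theorem rel17x7 : allFrom (chkRelF cfg relsL) (nat_lit 980) (nat_lit 206852) = true := by decide +kernel
theorem rel17x8 : allFrom (chkRelF cfg relsL) (nat_lit 980) (nat_lit 207832) = true := by decide +kernel
theorem rel17x9 : allFrom (chkRelF cfg relsL) (nat_lit 980) (nat_lit 208812) = true := by decide +kernel
theorem rel17x10 : allFrom (chkRelF cfg relsL) (nat_lit 980) (nat_lit 209792) = true := by decide +kernel
theorem rel17x11 : allFrom (chkRelF cfg relsL) (nat_lit 980) (nat_lit 210772) = true := by decide +kernel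
theorem rel17c1 : allFrom (chkRelF cfg relsL) (nat_lit 1962) (nat_lit 199988) = true := join rel17x0 rel17x1 rfl rfl
theorem rel17c2 : allFrom (chkRelF cfg relsL) (nat_lit 2943) (nat_lit 199988) = true := join rel17c1 rel17x2 rfl rfl
theorem rel17c3 : allFrom (chkRelF cfg relsL) (nat_lit 3924) (nat_lit 199988) = true := join rel17c2 rel17x3 rfl rfl
theorem rel17c4 : allFrom (chkRelF cfg relsL) (nat_lit 4904) (nat_lit 199988) = true := join rel17c3 rel17x4 rfl rfl
theorem rel17c5 : allFrom (chkRelF cfg relsL) (nat_lit 5884) (nat_lit 199988) = true := join rel17c4 rel17x5 rfl rfl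
theorem rel17c6 : allFrom (chkRelF cfg relsL) (nat_lit 6864) (nat_lit 199988) = true := join rel17c5 rel17x6 rfl rfl
theorem rel17c7 : allFrom (chkRelF cfg relsL) (nat_lit 7844) (nat_lit 199988) = true := join rel17c6 rel17x7 rfl rfl
theorem rel17c8 : allFrom (chkRelF cfg relsL) (nat_lit 8824) (nat_lit 199988) = true := join rel17c7 rel17x8 rfl rfl
theorem rel17c9 : allFrom (chkRelF cfg relsL) (nat_lit 9804) (nat_lit 199988) = true := join rel17c8 rel17x9 rfl rfl
theorem rel17c10 : allFrom (chkRelF cfg relsL) (nat_lit 10784) (nat_lit 199988) = true := join rel17c9 rel17x10 rfl rfl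
theorem rel17 : allFrom (chkRelF cfg relsL) (nat_lit 11764) (nat_lit 199988) = true := join rel17c10 rel17x11 rfl rfl

end Cfsg.Agent.Lib.Compute.TC.HNU2
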