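-- Certificate checks for HNU2.
import Cfsg.Agent.Lib.Compute.TC.HNU2.Data
import Cfsg.Agent.Lib.Compute.TCSplit
set_option autoImplicit false
set_option Elab.async false
set_option maxRecDepth 1000000

open Cfsg.Agent.Lib.Compute.ToddCoxeterCore Cfsg.Agent.Lib.Compute.ToddCoxeterPresented Cfsg.Agent.Lib.Compute.TCFast

open Cfsg.Agent.Lib.Compute.TCSplit

namespace Cfsg.Agent.Lib.Compute.TC.HNU2

theorem rel18x0 : allFrom (chkRelF cfg relsL) (nat_lit 981) (nat_lit 211752) = true := by decide +kernel
theorem rel18x1 : allFrom (chkRelF cfg relsL) (nat_lit 981) (nat_lit 212733) = true := by decide +kernel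
theorem rel18x2 : allFrom (chkRelF cfg relsL) (nat_lit 981) (nat_lit 213714) = true := by decide +kernel
theorem rel18x3 : allFrom (chkRelF cfg relsL) (nat_lit 981) (nat_lit 214695) = true := by decide +kernel
theorem rel18x4 : allFrom (chkRelF cfg relsL) (nat_lit 980) (nat_lit 215676) = true := by decide +kernel
theorem rel18x5 : allFrom (chkRelF cfg relsL) (nat_lit 980) (nat_lit 216656) = true := by decide +kernel
theorem rel18x6 : allFrom (chkRelF cfg relsL) (nat_lit 980) (nat_lit 217636) = true := by decide +kernel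
theorem rel18x7 : allFrom (chkRelF cfg relsL) (nat_lit 980) (nat_lit 218616) = true := by decide +kernel
theorem rel18x8 : allFrom (chkRelF cfg relsL) (nat_lit 980) (nat_lit 219596) = true := by decide +kernel
theorem rel18x9 : allFrom (chkRelF cfg relsL) (nat_lit 980) (nat_lit 220576) = true := by decide +kernel
theorem rel18x10 : allFrom (chkRelF cfg relsL) (nat_lit 980) (nat_lit 221556) = true := by decide +kernel
theorem rel18x11 : allFrom (chkRelF cfg relsL) (nat_lit 980) (nat_lit 222536) = true := by decide +kernel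
theorem rel18c1 : allFrom (chkRelF cfg relsL) (nat_lit 1962) (nat_lit 211752) = true := join rel18x0 rel18x1 rfl rfl
theorem rel18c2 : allFrom (chkRelF cfg relsL) (nat_lit 2943) (nat_lit 211752) = true := join rel18c1 rel18x2 rfl rfl
theorem rel18c3 : allFrom (chkRelF cfg relsL) (nat_lit 3924) (nat_lit 211752) = true := join rel18c2 rel18x3 rfl rfl
theorem rel18c4 : allFrom (chkRelF cfg relsL) (nat_lit 4904) (nat_lit 211752) = true := join rel18c3 rel18x4 rfl rfl
theorem rel18c5 : allFrom (chkRelF cfg relsL) (nat_lit 5884) (nat_lit 211752) = true := join rel18c4 rel18x5 rfl rfl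
theorem rel18c6 : allFrom (chkRelF cfg relsL) (nat_lit 6864) (nat_lit 211752) = true := join rel18c5 rel18x6 rfl rfl
theorem rel18c7 : allFrom (chkRelF cfg relsL) (nat_lit 7844) (nat_lit 211752) = true := join rel18c6 rel18x7 rfl rfl
theorem rel18c8 : allFrom (chkRelF cfg relsL) (nat_lit 8824) (nat_lit 211752) = true := join rel18c7 rel18x8 rfl rfl
theorem rel18c9 : allFrom (chkRelF cfg relsL) (nat_lit 9804) (nat_lit 211752) = true := join rel18c8 rel18x9 rfl rfl
theorem rel18c10 : allFrom (chkRelF cfg relsL) (nat_lit 10784) (nat_lit 211752) = true := join rel18c9 rel18x10 rfl rfl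
theorem rel18 : allFrom (chkRelF cfg relsL) (nat_lit 11764) (nat_lit 211752) = true := join rel18c10 rel18x11 rfl rfl

end Cfsg.Agent.Lib.Compute.TC.HNU2
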