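-- Certificate checks for HNU2.
import Cfsg.Agent.Lib.Compute.TC.HNU2.Data
import Cfsg.Agent.Lib.Compute.TCSplit
set_option autoImplicit false
set_option Elab.async false
set_option maxRecDepth 1000000

open Cfsg.Agent.Lib.Compute.ToddCoxeterCore Cfsg.Agent.Lib.Compute.ToddCoxeterPresented Cfsg.Agent.Lib.Compute.TCFast

open Cfsg.Agent.Lib.Compute.TCSplit

namespace Cfsg.Agent.Lib.Compute.TC.HNU2

theorem rel19x0 : allFrom (chkRelF cfg relsL) (nat_lit 981) (nat_lit 223516) = true := by decide +kernel
theorem rel19x1 : allFrom (chkRelF cfg relsL) (nat_lit 981) (nat_lit 224497) = true := by decide +kernel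
theorem rel19x2 : allFrom (chkRelF cfg relsL) (nat_lit 981) (nat_lit 225478) = true := by decide +kernel
theorem rel19x3 : allFrom (chkRelF cfg relsL) (nat_lit 981) (nat_lit 226459) = true := by decide +kernel
theorem rel19x4 : allFrom (chkRelF cfg relsL) (nat_lit 980) (nat_lit 227440) = true := by decide +kernel
theorem rel19x5 : allFrom (chkRelF cfg relsL) (nat_lit 980) (nat_lit 228420) = true := by decide +kernel
theorem rel19x6 : allFrom (chkRelF cfg relsL) (nat_lit 980) (nat_lit 229400) = true := by decide +kernel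
theorem rel19x7 : allFrom (chkRelF cfg relsL) (nat_lit 980) (nat_lit 230380) = true := by decide +kernel
theorem rel19x8 : allFrom (chkRelF cfg relsL) (nat_lit 980) (nat_lit 231360) = true := by decide +kernel
theorem rel19x9 : allFrom (chkRelF cfg relsL) (nat_lit 980) (nat_lit 232340) = true := by decide +kernel
theorem rel19x10 : allFrom (chkRelF cfg relsL) (nat_lit 980) (nat_lit 233320) = true := by decide +kernel
theorem rel19x11 : allFrom (chkRelF cfg relsL) (nat_lit 980) (nat_lit 234300) = true := by decide +kernel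
theorem rel19c1 : allFrom (chkRelF cfg relsL) (nat_lit 1962) (nat_lit 223516) = true := join rel19x0 rel19x1 rfl rfl
theorem rel19c2 : allFrom (chkRelF cfg relsL) (nat_lit 2943) (nat_lit 223516) = true := join rel19c1 rel19x2 rfl rfl
theorem rel19c3 : allFrom (chkRelF cfg relsL) (nat_lit 3924) (nat_lit 223516) = true := join rel19c2 rel19x3 rfl rfl
theorem rel19c4 : allFrom (chkRelF cfg relsL) (nat_lit 4904) (nat_lit 223516) = true := join rel19c3 rel19x4 rfl rfl
theorem rel19c5 : allFrom (chkRelF cfg relsL) (nat_lit 5884) (nat_lit 223516) = true := join rel19c4 rel19x5 rfl rfl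
theorem rel19c6 : allFrom (chkRelF cfg relsL) (nat_lit 6864) (nat_lit 223516) = true := join rel19c5 rel19x6 rfl rfl
theorem rel19c7 : allFrom (chkRelF cfg relsL) (nat_lit 7844) (nat_lit 223516) = true := join rel19c6 rel19x7 rfl rfl
theorem rel19c8 : allFrom (chkRelF cfg relsL) (nat_lit 8824) (nat_lit 223516) = true := join rel19c7 rel19x8 rfl rfl
theorem rel19c9 : allFrom (chkRelF cfg relsL) (nat_lit 9804) (nat_lit 223516) = true := join rel19c8 rel19x9 rfl rfl
theorem rel19c10 : allFrom (chkRelF cfg relsL) (nat_lit 10784) (nat_lit 223516) = true := join rel19c9 rel19x10 rfl rfl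
theorem rel19 : allFrom (chkRelF cfg relsL) (nat_lit 11764) (nat_lit 223516) = true := join rel19c10 rel19x11 rfl rfl

end Cfsg.Agent.Lib.Compute.TC.HNU2
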