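-- Certificate checks for HNU2.
import Cfsg.Agent.Lib.Compute.TC.HNU2.Data
import Cfsg.Agent.Lib.Compute.TCSplit
set_option autoImplicit false
set_option Elab.async false
set_option maxRecDepth 1000000

open Cfsg.Agent.Lib.Compute.ToddCoxeterCore Cfsg.Agent.Lib.Compute.ToddCoxeterPresented Cfsg.Agent.Lib.Compute.TCFast

open Cfsg.Agent.Lib.Compute.TCSplit

namespace Cfsg.Agent.Lib.Compute.TC.HNU2

theorem rel2x0 : allFrom (chkRelF cfg relsL) (nat_lit 981) (nat_lit 23528) = true := by decide +kernel
theorem rel2x1 : allFrom (chkRelF cfg relsL) (nat_lit 981) (nat_lit 24509) = true := by decide +kernel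
theorem rel2x2 : allFrom (chkRelF cfg relsL) (nat_lit 981) (nat_lit 25490) = true := by decide +kernel
theorem rel2x3 : allFrom (chkRelF cfg relsL) (nat_lit 981) (nat_lit 26471) = true := by decide +kernel
theorem rel2x4 : allFrom (chkRelF cfg relsL) (nat_lit 980) (nat_lit 27452) = true := by decide +kernel
theorem rel2x5 : allFrom (chkRelF cfg relsL) (nat_lit 980) (nat_lit 28432) = true := by decide +kernel
theorem rel2x6 : allFrom (chkRelF cfg relsL) (nat_lit 980) (nat_lit 29412) = true := by decide +kernel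
theorem rel2x7 : allFrom (chkRelF cfg relsL) (nat_lit 980) (nat_lit 30392) = true := by decide +kernel
theorem rel2x8 : allFrom (chkRelF cfg relsL) (nat_lit 980) (nat_lit 31372) = true := by decide +kernel
theorem rel2x9 : allFrom (chkRelF cfg relsL) (nat_lit 980) (nat_lit 32352) = true := by decide +kernel
theorem rel2x10 : allFrom (chkRelF cfg relsL) (nat_lit 980) (nat_lit 33332) = true := by decide +kernel
theorem rel2x11 : allFrom (chkRelF cfg relsL) (nat_lit 980) (nat_lit 34312) = true := by decide +kernel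
theorem rel2c1 : allFrom (chkRelF cfg relsL) (nat_lit 1962) (nat_lit 23528) = true := join rel2x0 rel2x1 rfl rfl
theorem rel2c2 : allFrom (chkRelF cfg relsL) (nat_lit 2943) (nat_lit 23528) = true := join rel2c1 rel2x2 rfl rfl
theorem rel2c3 : allFrom (chkRelF cfg relsL) (nat_lit 3924) (nat_lit 23528) = true := join rel2c2 rel2x3 rfl rfl
theorem rel2c4 : allFrom (chkRelF cfg relsL) (nat_lit 4904) (nat_lit 23528) = true := join rel2c3 rel2x4 rfl rfl
theorem rel2c5 : allFrom (chkRelF cfg relsL) (nat_lit 5884) (nat_lit 23528) = true := join rel2c4 rel2x5 rfl rfl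
theorem rel2c6 : allFrom (chkRelF cfg relsL) (nat_lit 6864) (nat_lit 23528) = true := join rel2c5 rel2x6 rfl rfl
theorem rel2c7 : allFrom (chkRelF cfg relsL) (nat_lit 7844) (nat_lit 23528) = true := join rel2c6 rel2x7 rfl rfl
theorem rel2c8 : allFrom (chkRelF cfg relsL) (nat_lit 8824) (nat_lit 23528) = true := join rel2c7 rel2x8 rfl rfl
theorem rel2c9 : allFrom (chkRelF cfg relsL) (nat_lit 9804) (nat_lit 23528) = true := join rel2c8 rel2x9 rfl rfl
theorem rel2c10 : allFrom (chkRelF cfg relsL) (nat_lit 10784) (nat_lit 23528) = true := join rel2c9 rel2x10 rfl rfl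
theorem rel2 : allFrom (chkRelF cfg relsL) (nat_lit 11764) (nat_lit 23528) = true := join rel2c10 rel2x11 rfl rfl

end Cfsg.Agent.Lib.Compute.TC.HNU2
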