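-- Certificate checks for HNU2.
import Cfsg.Agent.Lib.Compute.TC.HNU2.Data
import Cfsg.Agent.Lib.Compute.TCSplit
set_option autoImplicit false
set_option Elab.async false
set_option maxRecDepth 1000000

open Cfsg.Agent.Lib.Compute.ToddCoxeterCore Cfsg.Agent.Lib.Compute.ToddCoxeterPresented Cfsg.Agent.Lib.Compute.TCFast

open Cfsg.Agent.Lib.Compute.TCSplit

namespace Cfsg.Agent.Lib.Compute.TC.HNU2

theorem rel20x0 : allFrom (chkRelF cfg relsL) (nat_lit 981) (nat_lit 235280) = true := by decide +kernel
theorem rel20x1 : allFrom (chkRelF cfg relsL) (nat_lit 981) (nat_lit 236261) = true := by decide +kernel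
theorem rel20x2 : allFrom (chkRelF cfg relsL) (nat_lit 981) (nat_lit 237242) = true := by decide +kernel
theorem rel20x3 : allFrom (chkRelF cfg relsL) (nat_lit 981) (nat_lit 238223) = true := by decide +kernel
theorem rel20x4 : allFrom (chkRelF cfg relsL) (nat_lit 980) (nat_lit 239204) = true := by decide +kernel
theorem rel20x5 : allFrom (chkRelF cfg relsL) (nat_lit 980) (nat_lit 240184) = true := by decide +kernel
theorem rel20x6 : allFrom (chkRelF cfg relsL) (nat_lit 980) (nat_lit 241164) = true := by decide +kernel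
theorem rel20x7 : allFrom (chkRelF cfg relsL) (nat_lit 980) (nat_lit 242144) = true := by decide +kernel
theorem rel20x8 : allFrom (chkRelF cfg relsL) (nat_lit 980) (nat_lit 243124) = true := by decide +kernel
theorem rel20x9 : allFrom (chkRelF cfg relsL) (nat_lit 980) (nat_lit 244104) = true := by decide +kernel
theorem rel20x10 : allFrom (chkRelF cfg relsL) (nat_lit 980) (nat_lit 245084) = true := by decide +kernel
theorem rel20x11 : allFrom (chkRelF cfg relsL) (nat_lit 980) (nat_lit 246064) = true := by decide +kernel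
theorem rel20c1 : allFrom (chkRelF cfg relsL) (nat_lit 1962) (nat_lit 235280) = true := join rel20x0 rel20x1 rfl rfl
theorem rel20c2 : allFrom (chkRelF cfg relsL) (nat_lit 2943) (nat_lit 235280) = true := join rel20c1 rel20x2 rfl rfl
theorem rel20c3 : allFrom (chkRelF cfg relsL) (nat_lit 3924) (nat_lit 235280) = true := join rel20c2 rel20x3 rfl rfl
theorem rel20c4 : allFrom (chkRelF cfg relsL) (nat_lit 4904) (nat_lit 235280) = true := join rel20c3 rel20x4 rfl rfl
theorem rel20c5 : allFrom (chkRelF cfg relsL) (nat_lit 5884) (nat_lit 235280) = true := join rel20c4 rel20x5 rfl rfl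
theorem rel20c6 : allFrom (chkRelF cfg relsL) (nat_lit 6864) (nat_lit 235280) = true := join rel20c5 rel20x6 rfl rfl
theorem rel20c7 : allFrom (chkRelF cfg relsL) (nat_lit 7844) (nat_lit 235280) = true := join rel20c6 rel20x7 rfl rfl
theorem rel20c8 : allFrom (chkRelF cfg relsL) (nat_lit 8824) (nat_lit 235280) = true := join rel20c7 rel20x8 rfl rfl
theorem rel20c9 : allFrom (chkRelF cfg relsL) (nat_lit 9804) (nat_lit 235280) = true := join rel20c8 rel20x9 rfl rfl
theorem rel20c10 : allFrom (chkRelF cfg relsL) (nat_lit 10784) (nat_lit 235280) = true := join rel20c9 rel20x10 rfl rfl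
theorem rel20 : allFrom (chkRelF cfg relsL) (nat_lit 11764) (nat_lit 235280) = true := join rel20c10 rel20x11 rfl rfl

end Cfsg.Agent.Lib.Compute.TC.HNU2
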