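-- Certificate checks for HNU2.
import Cfsg.Agent.Lib.Compute.TC.HNU2.Data
import Cfsg.Agent.Lib.Compute.TCSplit
set_option autoImplicit false
set_option Elab.async false
set_option maxRecDepth 1000000

open Cfsg.Agent.Lib.Compute.ToddCoxeterCore Cfsg.Agent.Lib.Compute.ToddCoxeterPresented Cfsg.Agent.Lib.Compute.TCFast

open Cfsg.Agent.Lib.Compute.TCSplit

namespace Cfsg.Agent.Lib.Compute.TC.HNU2

theorem rel21x0 : allFrom (chkRelF cfg relsL) (nat_lit 413) (nat_lit 247044) = true := by decide +kernel
theorem rel21x1 : allFrom (chkRelF cfg relsL) (nat_lit 413) (nat_lit 247457) = true := by decide +kernel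
theorem rel21x2 : allFrom (chkRelF cfg relsL) (nat_lit 413) (nat_lit 247870) = true := by decide +kernel
theorem rel21x3 : allFrom (chkRelF cfg relsL) (nat_lit 413) (nat_lit 248283) = true := by decide +kernel
theorem rel21x4 : allFrom (chkRelF cfg relsL) (nat_lit 413) (nat_lit 248696) = true := by decide +kernel
theorem rel21x5 : allFrom (chkRelF cfg relsL) (nat_lit 413) (nat_lit 249109) = true := by decide +kernel
theorem rel21x6 : allFrom (chkRelF cfg relsL) (nat_lit 413) (nat_lit 249522) = true := by decide +kernel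
theorem rel21x7 : allFrom (chkRelF cfg relsL) (nat_lit 413) (nat_lit 249935) = true := by decide +kernel
theorem rel21x8 : allFrom (chkRelF cfg relsL) (nat_lit 413) (nat_lit 250348) = true := by decide +kernel
theorem rel21x9 : allFrom (chkRelF cfg relsL) (nat_lit 413) (nat_lit 250761) = true := by decide +kernel
theorem rel21x10 : allFrom (chkRelF cfg relsL) (nat_lit 413) (nat_lit 251174) = true := by decide +kernel
theorem rel21x11 : allFrom (chkRelF cfg relsL) (nat_lit 413) (nat_lit 251587) = true := by decide +kernel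
theorem rel21c1 : allFrom (chkRelF cfg relsL) (nat_lit 826) (nat_lit 247044) = true := join rel21x0 rel21x1 rfl rfl
theorem rel21c2 : allFrom (chkRelF cfg relsL) (nat_lit 1239) (nat_lit 247044) = true := join rel21c1 rel21x2 rfl rfl
theorem rel21c3 : allFrom (chkRelF cfg relsL) (nat_lit 1652) (nat_lit 247044) = true := join rel21c2 rel21x3 rfl rfl
theorem rel21c4 : allFrom (chkRelF cfg relsL) (nat_lit 2065) (nat_lit 247044) = true := join rel21c3 rel21x4 rfl rfl
theorem rel21c5 : allFrom (chkRelF cfg relsL) (nat_lit 2478) (nat_lit 247044) = true := join rel21c4 rel21x5 rfl rfl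
theorem rel21c6 : allFrom (chkRelF cfg relsL) (nat_lit 2891) (nat_lit 247044) = true := join rel21c5 rel21x6 rfl rfl
theorem rel21c7 : allFrom (chkRelF cfg relsL) (nat_lit 3304) (nat_lit 247044) = true := join rel21c6 rel21x7 rfl rfl
theorem rel21c8 : allFrom (chkRelF cfg relsL) (nat_lit 3717) (nat_lit 247044) = true := join rel21c7 rel21x8 rfl rfl
theorem rel21c9 : allFrom (chkRelF cfg relsL) (nat_lit 4130) (nat_lit 247044) = true := join rel21c8 rel21x9 rfl rfl
theorem rel21c10 : allFrom (chkRelF cfg relsL) (nat_lit 4543) (nat_lit 247044) = true := join rel21c9 rel21x10 rfl rfl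
theorem rel21 : allFrom (chkRelF cfg relsL) (nat_lit 4956) (nat_lit 247044) = true := join rel21c10 rel21x11 rfl rfl

end Cfsg.Agent.Lib.Compute.TC.HNU2
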