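-- Certificate checks for HNU2.
import Cfsg.Agent.Lib.Compute.TC.HNU2.Data
import Cfsg.Agent.Lib.Compute.TCSplit
set_option autoImplicit false
set_option Elab.async false
set_option maxRecDepth 1000000

open Cfsg.Agent.Lib.Compute.ToddCoxeterCore Cfsg.Agent.Lib.Compute.ToddCoxeterPresented Cfsg.Agent.Lib.Compute.TCFast

open Cfsg.Agent.Lib.Compute.TCSplit

namespace Cfsg.Agent.Lib.Compute.TC.HNU2

theorem rel3x0 : allFrom (chkRelF cfg relsL) (nat_lit 981) (nat_lit 35292) = true := by decide +kernel
theorem rel3x1 : allFrom (chkRelF cfg relsL) (nat_lit 981) (nat_lit 36273) = true := by decide +kernel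
theorem rel3x2 : allFrom (chkRelF cfg relsL) (nat_lit 981) (nat_lit 37254) = true := by decide +kernel
theorem rel3x3 : allFrom (chkRelF cfg relsL) (nat_lit 981) (nat_lit 38235) = true := by decide +kernel
theorem rel3x4 : allFrom (chkRelF cfg relsL) (nat_lit 980) (nat_lit 39216) = true := by decide +kernel
theorem rel3x5 : allFrom (chkRelF cfg relsL) (nat_lit 980) (nat_lit 40196) = true := by decide +kernel
theorem rel3x6 : allFrom (chkRelF cfg relsL) (nat_lit 980) (nat_lit 41176) = true := by decide +kernel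
theorem rel3x7 : allFrom (chkRelF cfg relsL) (nat_lit 980) (nat_lit 42156) = true := by decide +kernel
theorem rel3x8 : allFrom (chkRelF cfg relsL) (nat_lit 980) (nat_lit 43136) = true := by decide +kernel
theorem rel3x9 : allFrom (chkRelF cfg relsL) (nat_lit 980) (nat_lit 44116) = true := by decide +kernel
theorem rel3x10 : allFrom (chkRelF cfg relsL) (nat_lit 980) (nat_lit 45096) = true := by decide +kernel
theorem rel3x11 : allFrom (chkRelF cfg relsL) (nat_lit 980) (nat_lit 46076) = true := by decide +kernel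
theorem rel3c1 : allFrom (chkRelF cfg relsL) (nat_lit 1962) (nat_lit 35292) = true := join rel3x0 rel3x1 rfl rfl
theorem rel3c2 : allFrom (chkRelF cfg relsL) (nat_lit 2943) (nat_lit 35292) = true := join rel3c1 rel3x2 rfl rfl
theorem rel3c3 : allFrom (chkRelF cfg relsL) (nat_lit 3924) (nat_lit 35292) = true := join rel3c2 rel3x3 rfl rfl
theorem rel3c4 : allFrom (chkRelF cfg relsL) (nat_lit 4904) (nat_lit 35292) = true := join rel3c3 rel3x4 rfl rfl
theorem rel3c5 : allFrom (chkRelF cfg relsL) (nat_lit 5884) (nat_lit 35292) = true := join rel3c4 rel3x5 rfl rfl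
theorem rel3c6 : allFrom (chkRelF cfg relsL) (nat_lit 6864) (nat_lit 35292) = true := join rel3c5 rel3x6 rfl rfl
theorem rel3c7 : allFrom (chkRelF cfg relsL) (nat_lit 7844) (nat_lit 35292) = true := join rel3c6 rel3x7 rfl rfl
theorem rel3c8 : allFrom (chkRelF cfg relsL) (nat_lit 8824) (nat_lit 35292) = true := join rel3c7 rel3x8 rfl rfl
theorem rel3c9 : allFrom (chkRelF cfg relsL) (nat_lit 9804) (nat_lit 35292) = true := join rel3c8 rel3x9 rfl rfl
theorem rel3c10 : allFrom (chkRelF cfg relsL) (nat_lit 10784) (nat_lit 35292) = true := join rel3c9 rel3x10 rfl rfl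
theorem rel3 : allFrom (chkRelF cfg relsL) (nat_lit 11764) (nat_lit 35292) = true := join rel3c10 rel3x11 rfl rfl

end Cfsg.Agent.Lib.Compute.TC.HNU2
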