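-- Certificate checks for HNU2.
import Cfsg.Agent.Lib.Compute.TC.HNU2.Data
import Cfsg.Agent.Lib.Compute.TCSplit
set_option autoImplicit false
set_option Elab.async false
set_option maxRecDepth 1000000

open Cfsg.Agent.Lib.Compute.ToddCoxeterCore Cfsg.Agent.Lib.Compute.ToddCoxeterPresented Cfsg.Agent.Lib.Compute.TCFast

open Cfsg.Agent.Lib.Compute.TCSplit

namespace Cfsg.Agent.Lib.Compute.TC.HNU2

theorem rel4x0 : allFrom (chkRelF cfg relsL) (nat_lit 981) (nat_lit 47056) = true := by decide +kernel
theorem rel4x1 : allFrom (chkRelF cfg relsL) (nat_lit 981) (nat_lit 48037) = true := by decide +kernel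
theorem rel4x2 : allFrom (chkRelF cfg relsL) (nat_lit 981) (nat_lit 49018) = true := by decide +kernel
theorem rel4x3 : allFrom (chkRelF cfg relsL) (nat_lit 981) (nat_lit 49999) = true := by decide +kernel
theorem rel4x4 : allFrom (chkRelF cfg relsL) (nat_lit 980) (nat_lit 50980) = true := by decide +kernel
theorem rel4x5 : allFrom (chkRelF cfg relsL) (nat_lit 980) (nat_lit 51960) = true := by decide +kernel
theorem rel4x6 : allFrom (chkRelF cfg relsL) (nat_lit 980) (nat_lit 52940) = true := by decide +kernel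
theorem rel4x7 : allFrom (chkRelF cfg relsL) (nat_lit 980) (nat_lit 53920) = true := by decide +kernel
theorem rel4x8 : allFrom (chkRelF cfg relsL) (nat_lit 980) (nat_lit 54900) = true := by decide +kernel
theorem rel4x9 : allFrom (chkRelF cfg relsL) (nat_lit 980) (nat_lit 55880) = true := by decide +kernel
theorem rel4x10 : allFrom (chkRelF cfg relsL) (nat_lit 980) (nat_lit 56860) = true := by decide +kernel
theorem rel4x11 : allFrom (chkRelF cfg relsL) (nat_lit 980) (nat_lit 57840) = true := by decide +kernel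
theorem rel4c1 : allFrom (chkRelF cfg relsL) (nat_lit 1962) (nat_lit 47056) = true := join rel4x0 rel4x1 rfl rfl
theorem rel4c2 : allFrom (chkRelF cfg relsL) (nat_lit 2943) (nat_lit 47056) = true := join rel4c1 rel4x2 rfl rfl
theorem rel4c3 : allFrom (chkRelF cfg relsL) (nat_lit 3924) (nat_lit 47056) = true := join rel4c2 rel4x3 rfl rfl
theorem rel4c4 : allFrom (chkRelF cfg relsL) (nat_lit 4904) (nat_lit 47056) = true := join rel4c3 rel4x4 rfl rfl
theorem rel4c5 : allFrom (chkRelF cfg relsL) (nat_lit 5884) (nat_lit 47056) = true := join rel4c4 rel4x5 rfl rfl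
theorem rel4c6 : allFrom (chkRelF cfg relsL) (nat_lit 6864) (nat_lit 47056) = true := join rel4c5 rel4x6 rfl rfl
theorem rel4c7 : allFrom (chkRelF cfg relsL) (nat_lit 7844) (nat_lit 47056) = true := join rel4c6 rel4x7 rfl rfl
theorem rel4c8 : allFrom (chkRelF cfg relsL) (nat_lit 8824) (nat_lit 47056) = true := join rel4c7 rel4x8 rfl rfl
theorem rel4c9 : allFrom (chkRelF cfg relsL) (nat_lit 9804) (nat_lit 47056) = true := join rel4c8 rel4x9 rfl rfl
theorem rel4c10 : allFrom (chkRelF cfg relsL) (nat_lit 10784) (nat_lit 47056) = true := join rel4c9 rel4x10 rfl rfl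
theorem rel4 : allFrom (chkRelF cfg relsL) (nat_lit 11764) (nat_lit 47056) = true := join rel4c10 rel4x11 rfl rfl

end Cfsg.Agent.Lib.Compute.TC.HNU2
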