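-- Certificate checks for HNU2.
import Cfsg.Agent.Lib.Compute.TC.HNU2.Data
import Cfsg.Agent.Lib.Compute.TCSplit
set_option autoImplicit false
set_option Elab.async false
set_option maxRecDepth 1000000

open Cfsg.Agent.Lib.Compute.ToddCoxeterCore Cfsg.Agent.Lib.Compute.ToddCoxeterPresented Cfsg.Agent.Lib.Compute.TCFast

open Cfsg.Agent.Lib.Compute.TCSplit

namespace Cfsg.Agent.Lib.Compute.TC.HNU2

theorem rel5x0 : allFrom (chkRelF cfg relsL) (nat_lit 981) (nat_lit 58820) = true := by decide +kernel
theorem rel5x1 : allFrom (chkRelF cfg relsL) (nat_lit 981) (nat_lit 59801) = true := by decide +kernel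
theorem rel5x2 : allFrom (chkRelF cfg relsL) (nat_lit 981) (nat_lit 60782) = true := by decide +kernel
theorem rel5x3 : allFrom (chkRelF cfg relsL) (nat_lit 981) (nat_lit 61763) = true := by decide +kernel
theorem rel5x4 : allFrom (chkRelF cfg relsL) (nat_lit 980) (nat_lit 62744) = true := by decide +kernel
theorem rel5x5 : allFrom (chkRelF cfg relsL) (nat_lit 980) (nat_lit 63724) = true := by decide +kernel
theorem rel5x6 : allFrom (chkRelF cfg relsL) (nat_lit 980) (nat_lit 64704) = true := by decide +kernel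
theorem rel5x7 : allFrom (chkRelF cfg relsL) (nat_lit 980) (nat_lit 65684) = true := by decide +kernel
theorem rel5x8 : allFrom (chkRelF cfg relsL) (nat_lit 980) (nat_lit 66664) = true := by decide +kernel
theorem rel5x9 : allFrom (chkRelF cfg relsL) (nat_lit 980) (nat_lit 67644) = true := by decide +kernel
theorem rel5x10 : allFrom (chkRelF cfg relsL) (nat_lit 980) (nat_lit 68624) = true := by decide +kernel
theorem rel5x11 : allFrom (chkRelF cfg relsL) (nat_lit 980) (nat_lit 69604) = true := by decide +kernel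
theorem rel5c1 : allFrom (chkRelF cfg relsL) (nat_lit 1962) (nat_lit 58820) = true := join rel5x0 rel5x1 rfl rfl
theorem rel5c2 : allFrom (chkRelF cfg relsL) (nat_lit 2943) (nat_lit 58820) = true := join rel5c1 rel5x2 rfl rfl
theorem rel5c3 : allFrom (chkRelF cfg relsL) (nat_lit 3924) (nat_lit 58820) = true := join rel5c2 rel5x3 rfl rfl
theorem rel5c4 : allFrom (chkRelF cfg relsL) (nat_lit 4904) (nat_lit 58820) = true := join rel5c3 rel5x4 rfl rfl
theorem rel5c5 : allFrom (chkRelF cfg relsL) (nat_lit 5884) (nat_lit 58820) = true := join rel5c4 rel5x5 rfl rfl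
theorem rel5c6 : allFrom (chkRelF cfg relsL) (nat_lit 6864) (nat_lit 58820) = true := join rel5c5 rel5x6 rfl rfl
theorem rel5c7 : allFrom (chkRelF cfg relsL) (nat_lit 7844) (nat_lit 58820) = true := join rel5c6 rel5x7 rfl rfl
theorem rel5c8 : allFrom (chkRelF cfg relsL) (nat_lit 8824) (nat_lit 58820) = true := join rel5c7 rel5x8 rfl rfl
theorem rel5c9 : allFrom (chkRelF cfg relsL) (nat_lit 9804) (nat_lit 58820) = true := join rel5c8 rel5x9 rfl rfl
theorem rel5c10 : allFrom (chkRelF cfg relsL) (nat_lit 10784) (nat_lit 58820) = true := join rel5c9 rel5x10 rfl rfl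
theorem rel5 : allFrom (chkRelF cfg relsL) (nat_lit 11764) (nat_lit 58820) = true := join rel5c10 rel5x11 rfl rfl

end Cfsg.Agent.Lib.Compute.TC.HNU2
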