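-- Certificate checks for HNU2.
import Cfsg.Agent.Lib.Compute.TC.HNU2.Data
import Cfsg.Agent.Lib.Compute.TCSplit
set_option autoImplicit false
set_option Elab.async false
set_option maxRecDepth 1000000

open Cfsg.Agent.Lib.Compute.ToddCoxeterCore Cfsg.Agent.Lib.Compute.ToddCoxeterPresented Cfsg.Agent.Lib.Compute.TCFast

open Cfsg.Agent.Lib.Compute.TCSplit

namespace Cfsg.Agent.Lib.Compute.TC.HNU2

theorem rel6x0 : allFrom (chkRelF cfg relsL) (nat_lit 981) (nat_lit 70584) = true := by decide +kernel
theorem rel6x1 : allFrom (chkRelF cfg relsL) (nat_lit 981) (nat_lit 71565) = true := by decide +kernel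
theorem rel6x2 : allFrom (chkRelF cfg relsL) (nat_lit 981) (nat_lit 72546) = true := by decide +kernel
theorem rel6x3 : allFrom (chkRelF cfg relsL) (nat_lit 981) (nat_lit 73527) = true := by decide +kernel
theorem rel6x4 : allFrom (chkRelF cfg relsL) (nat_lit 980) (nat_lit 74508) = true := by decide +kernel
theorem rel6x5 : allFrom (chkRelF cfg relsL) (nat_lit 980) (nat_lit 75488) = true := by decide +kernel
theorem rel6x6 : allFrom (chkRelF cfg relsL) (nat_lit 980) (nat_lit 76468) = true := by decide +kernel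
theorem rel6x7 : allFrom (chkRelF cfg relsL) (nat_lit 980) (nat_lit 77448) = true := by decide +kernel
theorem rel6x8 : allFrom (chkRelF cfg relsL) (nat_lit 980) (nat_lit 78428) = true := by decide +kernel
theorem rel6x9 : allFrom (chkRelF cfg relsL) (nat_lit 980) (nat_lit 79408) = true := by decide +kernel
theorem rel6x10 : allFrom (chkRelF cfg relsL) (nat_lit 980) (nat_lit 80388) = true := by decide +kernel
theorem rel6x11 : allFrom (chkRelF cfg relsL) (nat_lit 980) (nat_lit 81368) = true := by decide +kernel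
theorem rel6c1 : allFrom (chkRelF cfg relsL) (nat_lit 1962) (nat_lit 70584) = true := join rel6x0 rel6x1 rfl rfl
theorem rel6c2 : allFrom (chkRelF cfg relsL) (nat_lit 2943) (nat_lit 70584) = true := join rel6c1 rel6x2 rfl rfl
theorem rel6c3 : allFrom (chkRelF cfg relsL) (nat_lit 3924) (nat_lit 70584) = true := join rel6c2 rel6x3 rfl rfl
theorem rel6c4 : allFrom (chkRelF cfg relsL) (nat_lit 4904) (nat_lit 70584) = true := join rel6c3 rel6x4 rfl rfl
theorem rel6c5 : allFrom (chkRelF cfg relsL) (nat_lit 5884) (nat_lit 70584) = true := join rel6c4 rel6x5 rfl rfl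
theorem rel6c6 : allFrom (chkRelF cfg relsL) (nat_lit 6864) (nat_lit 70584) = true := join rel6c5 rel6x6 rfl rfl
theorem rel6c7 : allFrom (chkRelF cfg relsL) (nat_lit 7844) (nat_lit 70584) = true := join rel6c6 rel6x7 rfl rfl
theorem rel6c8 : allFrom (chkRelF cfg relsL) (nat_lit 8824) (nat_lit 70584) = true := join rel6c7 rel6x8 rfl rfl
theorem rel6c9 : allFrom (chkRelF cfg relsL) (nat_lit 9804) (nat_lit 70584) = true := join rel6c8 rel6x9 rfl rfl
theorem rel6c10 : allFrom (chkRelF cfg relsL) (nat_lit 10784) (nat_lit 70584) = true := join rel6c9 rel6x10 rfl rfl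
theorem rel6 : allFrom (chkRelF cfg relsL) (nat_lit 11764) (nat_lit 70584) = true := join rel6c10 rel6x11 rfl rfl

end Cfsg.Agent.Lib.Compute.TC.HNU2
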