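-- Certificate checks for HNU2.
import Cfsg.Agent.Lib.Compute.TC.HNU2.Data
import Cfsg.Agent.Lib.Compute.TCSplit
set_option autoImplicit false
set_option Elab.async false
set_option maxRecDepth 1000000

open Cfsg.Agent.Lib.Compute.ToddCoxeterCore Cfsg.Agent.Lib.Compute.ToddCoxeterPresented Cfsg.Agent.Lib.Compute.TCFast

open Cfsg.Agent.Lib.Compute.TCSplit

namespace Cfsg.Agent.Lib.Compute.TC.HNU2

theorem rel7x0 : allFrom (chkRelF cfg relsL) (nat_lit 981) (nat_lit 82348) = true := by decide +kernel
theorem rel7x1 : allFrom (chkRelF cfg relsL) (nat_lit 981) (nat_lit 83329) = true := by decide +kernel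
theorem rel7x2 : allFrom (chkRelF cfg relsL) (nat_lit 981) (nat_lit 84310) = true := by decide +kernel
theorem rel7x3 : allFrom (chkRelF cfg relsL) (nat_lit 981) (nat_lit 85291) = true := by decide +kernel
theorem rel7x4 : allFrom (chkRelF cfg relsL) (nat_lit 980) (nat_lit 86272) = true := by decide +kernel
theorem rel7x5 : allFrom (chkRelF cfg relsL) (nat_lit 980) (nat_lit 87252) = true := by decide +kernel
theorem rel7x6 : allFrom (chkRelF cfg relsL) (nat_lit 980) (nat_lit 88232) = true := by decide +kernel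
theorem rel7x7 : allFrom (chkRelF cfg relsL) (nat_lit 980) (nat_lit 89212) = true := by decide +kernel
theorem rel7x8 : allFrom (chkRelF cfg relsL) (nat_lit 980) (nat_lit 90192) = true := by decide +kernel
theorem rel7x9 : allFrom (chkRelF cfg relsL) (nat_lit 980) (nat_lit 91172) = true := by decide +kernel
theorem rel7x10 : allFrom (chkRelF cfg relsL) (nat_lit 980) (nat_lit 92152) = true := by decide +kernel
theorem rel7x11 : allFrom (chkRelF cfg relsL) (nat_lit 980) (nat_lit 93132) = true := by decide +kernel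
theorem rel7c1 : allFrom (chkRelF cfg relsL) (nat_lit 1962) (nat_lit 82348) = true := join rel7x0 rel7x1 rfl rfl
theorem rel7c2 : allFrom (chkRelF cfg relsL) (nat_lit 2943) (nat_lit 82348) = true := join rel7c1 rel7x2 rfl rfl
theorem rel7c3 : allFrom (chkRelF cfg relsL) (nat_lit 3924) (nat_lit 82348) = true := join rel7c2 rel7x3 rfl rfl
theorem rel7c4 : allFrom (chkRelF cfg relsL) (nat_lit 4904) (nat_lit 82348) = true := join rel7c3 rel7x4 rfl rfl
theorem rel7c5 : allFrom (chkRelF cfg relsL) (nat_lit 5884) (nat_lit 82348) = true := join rel7c4 rel7x5 rfl rfl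
theorem rel7c6 : allFrom (chkRelF cfg relsL) (nat_lit 6864) (nat_lit 82348) = true := join rel7c5 rel7x6 rfl rfl
theorem rel7c7 : allFrom (chkRelF cfg relsL) (nat_lit 7844) (nat_lit 82348) = true := join rel7c6 rel7x7 rfl rfl
theorem rel7c8 : allFrom (chkRelF cfg relsL) (nat_lit 8824) (nat_lit 82348) = true := join rel7c7 rel7x8 rfl rfl
theorem rel7c9 : allFrom (chkRelF cfg relsL) (nat_lit 9804) (nat_lit 82348) = true := join rel7c8 rel7x9 rfl rfl
theorem rel7c10 : allFrom (chkRelF cfg relsL) (nat_lit 10784) (nat_lit 82348) = true := join rel7c9 rel7x10 rfl rfl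
theorem rel7 : allFrom (chkRelF cfg relsL) (nat_lit 11764) (nat_lit 82348) = true := join rel7c10 rel7x11 rfl rfl

end Cfsg.Agent.Lib.Compute.TC.HNU2
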