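-- Certificate checks for HNU2.
import Cfsg.Agent.Lib.Compute.TC.HNU2.Data
import Cfsg.Agent.Lib.Compute.TCSplit
set_option autoImplicit false
set_option Elab.async false
set_option maxRecDepth 1000000

open Cfsg.Agent.Lib.Compute.ToddCoxeterCore Cfsg.Agent.Lib.Compute.ToddCoxeterPresented Cfsg.Agent.Lib.Compute.TCFast

open Cfsg.Agent.Lib.Compute.TCSplit

namespace Cfsg.Agent.Lib.Compute.TC.HNU2

theorem rel8x0 : allFrom (chkRelF cfg relsL) (nat_lit 981) (nat_lit 94112) = true := by decide +kernel
theorem rel8x1 : allFrom (chkRelF cfg relsL) (nat_lit 981) (nat_lit 95093) = true := by decide +kernel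
theorem rel8x2 : allFrom (chkRelF cfg relsL) (nat_lit 981) (nat_lit 96074) = true := by decide +kernel
theorem rel8x3 : allFrom (chkRelF cfg relsL) (nat_lit 981) (nat_lit 97055) = true := by decide +kernel
theorem rel8x4 : allFrom (chkRelF cfg relsL) (nat_lit 980) (nat_lit 98036) = true := by decide +kernel
theorem rel8x5 : allFrom (chkRelF cfg relsL) (nat_lit 980) (nat_lit 99016) = true := by decide +kernel
theorem rel8x6 : allFrom (chkRelF cfg relsL) (nat_lit 980) (nat_lit 99996) = true := by decide +kernel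
theorem rel8x7 : allFrom (chkRelF cfg relsL) (nat_lit 980) (nat_lit 100976) = true := by decide +kernel
theorem rel8x8 : allFrom (chkRelF cfg relsL) (nat_lit 980) (nat_lit 101956) = true := by decide +kernel
theorem rel8x9 : allFrom (chkRelF cfg relsL) (nat_lit 980) (nat_lit 102936) = true := by decide +kernel
theorem rel8x10 : allFrom (chkRelF cfg relsL) (nat_lit 980) (nat_lit 103916) = true := by decide +kernel
theorem rel8x11 : allFrom (chkRelF cfg relsL) (nat_lit 980) (nat_lit 104896) = true := by decide +kernel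
theorem rel8c1 : allFrom (chkRelF cfg relsL) (nat_lit 1962) (nat_lit 94112) = true := join rel8x0 rel8x1 rfl rfl
theorem rel8c2 : allFrom (chkRelF cfg relsL) (nat_lit 2943) (nat_lit 94112) = true := join rel8c1 rel8x2 rfl rfl
theorem rel8c3 : allFrom (chkRelF cfg relsL) (nat_lit 3924) (nat_lit 94112) = true := join rel8c2 rel8x3 rfl rfl
theorem rel8c4 : allFrom (chkRelF cfg relsL) (nat_lit 4904) (nat_lit 94112) = true := join rel8c3 rel8x4 rfl rfl
theorem rel8c5 : allFrom (chkRelF cfg relsL) (nat_lit 5884) (nat_lit 94112) = true := join rel8c4 rel8x5 rfl rfl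
theorem rel8c6 : allFrom (chkRelF cfg relsL) (nat_lit 6864) (nat_lit 94112) = true := join rel8c5 rel8x6 rfl rfl
theorem rel8c7 : allFrom (chkRelF cfg relsL) (nat_lit 7844) (nat_lit 94112) = true := join rel8c6 rel8x7 rfl rfl
theorem rel8c8 : allFrom (chkRelF cfg relsL) (nat_lit 8824) (nat_lit 94112) = true := join rel8c7 rel8x8 rfl rfl
theorem rel8c9 : allFrom (chkRelF cfg relsL) (nat_lit 9804) (nat_lit 94112) = true := join rel8c8 rel8x9 rfl rfl
theorem rel8c10 : allFrom (chkRelF cfg relsL) (nat_lit 10784) (nat_lit 94112) = true := join rel8c9 rel8x10 rfl rfl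
theorem rel8 : allFrom (chkRelF cfg relsL) (nat_lit 11764) (nat_lit 94112) = true := join rel8c10 rel8x11 rfl rfl

end Cfsg.Agent.Lib.Compute.TC.HNU2
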