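-- Certificate checks for HNU2.
import Cfsg.Agent.Lib.Compute.TC.HNU2.Data
import Cfsg.Agent.Lib.Compute.TCSplit
set_option autoImplicit false
set_option Elab.async false
set_option maxRecDepth 1000000

open Cfsg.Agent.Lib.Compute.ToddCoxeterCore Cfsg.Agent.Lib.Compute.ToddCoxeterPresented Cfsg.Agent.Lib.Compute.TCFast

open Cfsg.Agent.Lib.Compute.TCSplit

namespace Cfsg.Agent.Lib.Compute.TC.HNU2

theorem rel9x0 : allFrom (chkRelF cfg relsL) (nat_lit 981) (nat_lit 105876) = true := by decide +kernel
theorem rel9x1 : allFrom (chkRelF cfg relsL) (nat_lit 981) (nat_lit 106857) = true := by decide +kernel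
theorem rel9x2 : allFrom (chkRelF cfg relsL) (nat_lit 981) (nat_lit 107838) = true := by decide +kernel
theorem rel9x3 : allFrom (chkRelF cfg relsL) (nat_lit 981) (nat_lit 108819) = true := by decide +kernel
theorem rel9x4 : allFrom (chkRelF cfg relsL) (nat_lit 980) (nat_lit 109800) = true := by decide +kernel
theorem rel9x5 : allFrom (chkRelF cfg relsL) (nat_lit 980) (nat_lit 110780) = true := by decide +kernel
theorem rel9x6 : allFrom (chkRelF cfg relsL) (nat_lit 980) (nat_lit 111760) = true := by decide +kernel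
theorem rel9x7 : allFrom (chkRelF cfg relsL) (nat_lit 980) (nat_lit 112740) = true := by decide +kernel
theorem rel9x8 : allFrom (chkRelF cfg relsL) (nat_lit 980) (nat_lit 113720) = true := by decide +kernel
theorem rel9x9 : allFrom (chkRelF cfg relsL) (nat_lit 980) (nat_lit 114700) = true := by decide +kernel
theorem rel9x10 : allFrom (chkRelF cfg relsL) (nat_lit 980) (nat_lit 115680) = true := by decide +kernel
theorem rel9x11 : allFrom (chkRelF cfg relsL) (nat_lit 980) (nat_lit 116660) = true := by decide +kernel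
theorem rel9c1 : allFrom (chkRelF cfg relsL) (nat_lit 1962) (nat_lit 105876) = true := join rel9x0 rel9x1 rfl rfl
theorem rel9c2 : allFrom (chkRelF cfg relsL) (nat_lit 2943) (nat_lit 105876) = true := join rel9c1 rel9x2 rfl rfl
theorem rel9c3 : allFrom (chkRelF cfg relsL) (nat_lit 3924) (nat_lit 105876) = true := join rel9c2 rel9x3 rfl rfl
theorem rel9c4 : allFrom (chkRelF cfg relsL) (nat_lit 4904) (nat_lit 105876) = true := join rel9c3 rel9x4 rfl rfl
theorem rel9c5 : allFrom (chkRelF cfg relsL) (nat_lit 5884) (nat_lit 105876) = true := join rel9c4 rel9x5 rfl rfl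
theorem rel9c6 : allFrom (chkRelF cfg relsL) (nat_lit 6864) (nat_lit 105876) = true := join rel9c5 rel9x6 rfl rfl
theorem rel9c7 : allFrom (chkRelF cfg relsL) (nat_lit 7844) (nat_lit 105876) = true := join rel9c6 rel9x7 rfl rfl
theorem rel9c8 : allFrom (chkRelF cfg relsL) (nat_lit 8824) (nat_lit 105876) = true := join rel9c7 rel9x8 rfl rfl
theorem rel9c9 : allFrom (chkRelF cfg relsL) (nat_lit 9804) (nat_lit 105876) = true := join rel9c8 rel9x9 rfl rfl
theorem rel9c10 : allFrom (chkRelF cfg relsL) (nat_lit 10784) (nat_lit 105876) = true := join rel9c9 rel9x10 rfl rfl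
theorem rel9 : allFrom (chkRelF cfg relsL) (nat_lit 11764) (nat_lit 105876) = true := join rel9c10 rel9x11 rfl rfl

end Cfsg.Agent.Lib.Compute.TC.HNU2
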